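import Cfsg.Agent.TwInvolF4.Count
import Cfsg.Agent.ChevTwSec.F4Two
import Cfsg.Agent.ChevSmall.Tits

/-!
# The Tits group: exactly two classes of involutions (owner: helper31)
-/

set_option autoImplicit false

namespace Cfsg.Agent.TwInvolF4

open Cfsg.Lie Cfsg.Agent.ChevGrp

/-- A conjugator in the whole group can be moved into a subgroup of index two. -/
theorem conj_in_index_two {G : Type*} [Group G] {D : Subgroup G} (hD : D.index = 2) {s g r a : G}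
    (hs : s ∉ D) (hsr : s * r = r * s) (h : a * g * a⁻¹ = r) : ∃ b ∈ D, b * g * b⁻¹ = r := by
  by_cases ha : a ∈ D
  · exact ⟨a, ha, h⟩
  · refine ⟨s * a, (Subgroup.mul_mem_iff_of_index_two hD).2 (iff_of_false hs ha), ?_⟩
    calc s * a * g * (s * a)⁻¹ = s * (a * g * a⁻¹) * s⁻¹ := by group
      _ = r := by rw [h, hsr, mul_inv_cancel_right]

theorem count_tits : (ConjClasses.mk '' {g : TitsGroup | orderOf g = 2}).ncard = 2 := by
  have hK : Fintype.card (ZMod 2) = 2 ^ (2 * 0 + 1) := by simp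
  obtain ⟨h7, o7⟩ := reps_order hK 7 1 0 (Or.inl ⟨rfl, rfl, rfl⟩)
  obtain ⟨h6, o6⟩ := reps_order hK 6 0 1 (Or.inr ⟨Or.inr rfl, rfl, rfl⟩)
  have d7 := ChevTwSec.involution_mem_commutator hK _ o7
  have d6 := ChevTwSec.involution_mem_commutator hK _ o6
  have es : Pw (2 ^ 0) 8 (1 : ZMod 2) 0 = (ChevSmall.Tits.genG 2 : GL chevF4.Idx (ZMod 2)) := by
    show _ = ChevSmall.Tits.glOf 2
    rw [ChevSmall.Tits.glOf, show Chev.evalWord (1 : ZMod 2) 1 (ChevSmall.Tits.letters 2) =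
      [(27, 1), (25, 1), (28, 1), (30, 0)] by decide +kernel]
    simp [Pw, blocks]
  have comm : ∀ i t u, (i = 7 ∧ t = 1 ∧ u = 0) ∨ (i = 6 ∧ t = 0 ∧ u = 1) →
      Pw (2 ^ 0) 8 (1 : ZMod 2) 0 * Pw (2 ^ 0) i t u = Pw (2 ^ 0) i t u * Pw (2 ^ 0) 8 1 0 := by
    have one : ∀ p : Pol, p = [] ∨ p = [[]] → pev ([] : List (ZMod 2)) p = if p = [] then 0 else 1 := by
      rintro p (rfl | rfl) <;> simp [pev, mev]
    have e8 := wev_blockSym (e := 2 ^ 0) (i := 8) ([] : List (ZMod 2)) (t := [[]]) (T := [[]]) (u := []) (U := [])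
      (by simp [one]) (by simp [one])
    have e7 := wev_blockSym (e := 2 ^ 0) (i := 7) ([] : List (ZMod 2)) (t := [[]]) (T := [[]]) (u := []) (U := [])
      (by simp [one]) (by simp [one])
    have e6 := wev_blockSym (e := 2 ^ 0) (i := 6) ([] : List (ZMod 2)) (t := []) (T := []) (u := [[]]) (U := [[]])
      (by simp [one]) (by simp [one])
    simp [one] at e8 e7 e6
    rintro i t u (⟨rfl, rfl, rfl⟩ | ⟨rfl, rfl, rfl⟩)
    · simp only [pow_zero]
      rw [← e8, ← e7, ← wev_append, ← wev_append]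
      exact wev_eq (by decide +kernel) _
    · simp only [pow_zero]
      rw [← e8, ← e6, ← wev_append, ← wev_append]
      exact wev_eq (by decide +kernel) _
  have key : ConjClasses.mk '' {g : TitsGroup | orderOf g = 2} =
      {ConjClasses.mk (⟨_, d7⟩ : TitsGroup), ConjClasses.mk (⟨_, d6⟩ : TitsGroup)} := by
    ext c
    constructor
    · rintro ⟨g, hg, rfl⟩
      change orderOf g = 2 at hg
      have hg' : orderOf (g : ↥(twistedF4 (ZMod 2) (2 ^ 0))) = 2 := (Subgroup.orderOf_coe g).trans hg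
      have hsq : (g : ↥(twistedF4 (ZMod 2) (2 ^ 0))) * (g : ↥(twistedF4 (ZMod 2) (2 ^ 0))) = 1 := by
        have h' := pow_orderOf_eq_one (g : ↥(twistedF4 (ZMod 2) (2 ^ 0)))
        rwa [hg', pow_two] at h'
      have hne : ((g : ↥(twistedF4 (ZMod 2) (2 ^ 0))) : GL chevF4.Idx (ZMod 2)) ≠ 1 := fun e => by
        rw [show (g : ↥(twistedF4 (ZMod 2) (2 ^ 0))) = 1 from Subtype.ext e, orderOf_one] at hg'
        norm_num at hg'
      have fin : ∀ (r : GL chevF4.Idx (ZMod 2)) (hr : r ∈ twistedF4 (ZMod 2) (2 ^ 0))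
          (hd : (⟨r, hr⟩ : ↥(twistedF4 (ZMod 2) (2 ^ 0))) ∈ commutator ↥(twistedF4 (ZMod 2) (2 ^ 0))),
          Pw (2 ^ 0) 8 1 0 * r = r * Pw (2 ^ 0) 8 1 0 →
          RC (2 ^ 0) ((g : ↥(twistedF4 (ZMod 2) (2 ^ 0))) : GL chevF4.Idx (ZMod 2)) r →
          ConjClasses.mk g = ConjClasses.mk (⟨_, hd⟩ : TitsGroup) := by
        intro r hr hd hc hrc
        obtain ⟨a, ha, e⟩ := hrc
        rw [es] at hc
        obtain ⟨b, hb, e'⟩ := conj_in_index_two (G := ↥(twistedF4 (ZMod 2) 1))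
          ChevSmall.Tits.index_commutator (s := ChevSmall.Tits.genG 2)
          (g := (g : ↥(twistedF4 (ZMod 2) (2 ^ 0)))) (r := ⟨r, hr⟩) (a := ⟨a, ha⟩)
          ChevSmall.Tits.genG2_notMem (Subtype.ext hc) (Subtype.ext e)
        exact ConjClasses.mk_eq_mk_iff_isConj.2 (isConj_iff.2 ⟨⟨b, hb⟩, Subtype.ext e'⟩)
      rcases involution_cases hK (g : ↥(twistedF4 (ZMod 2) (2 ^ 0))).2 (congrArg Subtype.val hsq :) hne with h | h
      · exact Or.inl (fin _ h7 d7 (comm _ _ _ (Or.inl ⟨rfl, rfl, rfl⟩)) h)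
      · obtain ⟨c, hc, hc'⟩ := (Pw2_rc hK).2
        exact Or.inr (fin _ h6 d6 (comm _ _ _ (Or.inr ⟨rfl, rfl, rfl⟩))
          (h.trans (((Pw2_rc hK).1 1 c one_ne_zero hc).trans hc'.symm)))
    · rintro (rfl | rfl)
      · exact ⟨⟨_, d7⟩, (Subgroup.orderOf_coe _).symm.trans o7, rfl⟩
      · exact ⟨⟨_, d6⟩, (Subgroup.orderOf_coe _).symm.trans o6, rfl⟩
  rw [key]
  refine Set.ncard_pair fun e => ?_
  obtain ⟨a, ha⟩ := isConj_iff.1 (ConjClasses.mk_eq_mk_iff_isConj.1 e.symm)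
  obtain ⟨c, hc, hc'⟩ := (Pw2_rc hK).2
  obtain ⟨b, -, hb⟩ := ((Pw2_rc hK).1 1 c one_ne_zero hc).trans hc'.symm
  refine not_conj (2 ^ 0) (by norm_num) (((a : ↥(twistedF4 (ZMod 2) (2 ^ 0))) : GL chevF4.Idx (ZMod 2)) * b) ?_
  have ha' := congrArg (fun x : TitsGroup => ((x : ↥(twistedF4 (ZMod 2) (2 ^ 0))) : GL chevF4.Idx (ZMod 2))) ha
  simp only [Subgroup.coe_mul, InvMemClass.coe_inv] at ha'
  rw [← hb] at ha'
  rw [← ha']
  group

end Cfsg.Agent.TwInvolF4
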