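import Cfsg.Agent.TwInvolF4.Steps

/-!
# Every involution of the unipotent group is conjugate to one of two representatives (owner: helper31)
-/

set_option autoImplicit false

namespace Cfsg.Agent.TwInvolF4

open Cfsg.Lie Cfsg.Agent.ChevGrp Cfsg.Agent.ChevTw

variable {K : Type*} [Field K] [CharP K 2] [Fintype K] {m : ℕ} (hK : Fintype.card K = 2 ^ (2 * m + 1))

include hK

theorem root_sq (x : K) : (((x ^ 2 ^ m) ^ 2 ^ m)) * ((x ^ 2 ^ m) ^ 2 ^ m) = x := by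
  rw [← pow_add, ← pow_mul, show 2 ^ m * (2 ^ m + 2 ^ m) = 2 * 2 ^ m * 2 ^ m by ring, pow_two_e hK]

theorem root_e (x : K) : (x ^ (2 * 2 ^ m)) ^ 2 ^ m = x := by
  rw [← pow_mul, pow_two_e hK]

theorem Uel_Pw7 {f : Par K} (hf : Live [9] f) : Uel (2 ^ m) f = Pw (2 ^ m) 7 (f 9) 0 := by
  have he : (2 : ℕ) ^ m ≠ 0 := by positivity
  simp [Uel, hf 0 (by decide), hf 1 (by decide), hf 2 (by decide), hf 3 (by decide), hf 4 (by decide),
    hf 5 (by decide), hf 6 (by decide), hf 7 (by decide), hf 8 (by decide), hf 10 (by decide), hf 11 (by decide),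
    Pw_zero _ he (i := 1), Pw_zero _ he (i := 2), Pw_zero _ he (i := 3), Pw_zero _ he (i := 4),
    Pw_zero _ he (i := 5), Pw_zero _ he (i := 6), Pw_zero _ he (i := 8)]

theorem Uel_Pw2 {f : Par K} (hf : Live [2] f) : Uel (2 ^ m) f = Pw (2 ^ m) 2 0 (f 2) := by
  have he : (2 : ℕ) ^ m ≠ 0 := by positivity
  simp [Uel, hf 0 (by decide), hf 1 (by decide), hf 3 (by decide), hf 4 (by decide),
    hf 5 (by decide), hf 6 (by decide), hf 7 (by decide), hf 8 (by decide), hf 9 (by decide), hf 10 (by decide),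
    hf 11 (by decide),
    Pw_zero _ he (i := 1), Pw_zero _ he (i := 3), Pw_zero _ he (i := 4), Pw_zero _ he (i := 5),
    Pw_zero _ he (i := 6), Pw_zero _ he (i := 7), Pw_zero _ he (i := 8)]

/-- The first type. -/
theorem toPw7 {f : Par K} (hf : Live [3, 5, 6, 8, 9] f) (h9 : f 9 ≠ 0) :
    RC (2 ^ m) (Uel (2 ^ m) f) (Pw (2 ^ m) 7 (f 9) 0) := by
  have he : (2 : ℕ) ^ m ≠ 0 := by positivity
  obtain ⟨f1, r1, s1⟩ := conj_step hK (l := [3, 5, 6, 8, 9]) (g := [12]) (i := 1)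
    (ks := [1, 3, 4, 7, 9, 15, 19, 21, 22])
    (ps := [[], [], [], padd (X 3) (pmul (X 9) (pmul (Xe 12) (Xe 12))), [], [], X 9, [], []])
    (by decide +kernel) (by decide) hf (by decide) ((f 3 / f 9) ^ 2 ^ m) 0 (fun h => absurd List.mem_cons_self h) (fun _ => rfl)
  simp (disch := norm_num) only [sel, List.map_cons, List.map_nil, pev_X, pev_Xe, pev_padd, pev_pmul, pev_nil] at s1
  simp [vals, vv] at s1
  obtain ⟨a0, a1, a2, a3, a4, a7, a9, a10, a11⟩ := s1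
  rw [root_sq hK, mul_div_cancel₀ _ h9, CharTwo.add_self_eq_zero] at a3
  have l1 : Live [5, 6, 8, 9] f1 := by
    intro j hj
    fin_cases j <;> simp_all [zero_pow he]
  have n1 : f1 9 ≠ 0 := a9 ▸ h9
  obtain ⟨f2, r2, s2⟩ := conj_step hK (l := [5, 6, 8, 9]) (g := [12]) (i := 2)
    (ks := [1, 3, 4, 7, 9, 13, 15, 19, 21, 22])
    (ps := [[], [], [], [], [], padd (X 6) (pmul (X 9) (pmul (Xe 12) (Xe 12))), [], X 9, [], []])
    (by decide +kernel) (by decide) l1 (by decide) ((f1 6 / f1 9) ^ 2 ^ m) 0 (fun h => absurd List.mem_cons_self h) (fun _ => rfl)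
  simp (disch := norm_num) only [sel, List.map_cons, List.map_nil, pev_X, pev_Xe, pev_padd, pev_pmul, pev_nil] at s2
  simp [vals, vv] at s2
  obtain ⟨b0, b1, b2, b3, b4, b6, b7, b9, b10, b11⟩ := s2
  rw [root_sq hK, mul_div_cancel₀ _ n1, CharTwo.add_self_eq_zero] at b6
  have l2 : Live [5, 8, 9] f2 := by
    intro j hj
    fin_cases j <;> simp_all [zero_pow he]
  have n2 : f2 9 ≠ 0 := b9 ▸ n1
  obtain ⟨f3, r3, s3⟩ := conj_step hK (l := [5, 8, 9]) (g := [12]) (i := 4)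
    (ks := [1, 3, 4, 7, 9, 13, 15, 16, 19, 21, 22])
    (ps := [[], [], [], [], [], [], [], padd (X 8) (pmul (Xe 9) (Xe 12)), X 9, [], []])
    (by decide +kernel) (by decide) l2 (by decide) ((f2 8 / f2 9 ^ 2 ^ m) ^ (2 * 2 ^ m)) 0 (fun h => absurd List.mem_cons_self h)
    (fun _ => rfl)
  simp (disch := norm_num) only [sel, List.map_cons, List.map_nil, pev_X, pev_Xe, pev_padd, pev_pmul, pev_nil] at s3
  simp [vals, vv] at s3
  obtain ⟨c0, c1, c2, c3, c4, c6, c7, c8, c9, c10, c11⟩ := s3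
  rw [root_e hK, mul_div_cancel₀ _ (pow_ne_zero _ n2), CharTwo.add_self_eq_zero] at c8
  have l3 : Live [5, 9] f3 := by
    intro j hj
    fin_cases j <;> simp_all [zero_pow he]
  have n3 : f3 9 ≠ 0 := c9 ▸ n2
  obtain ⟨f4, r4, s4⟩ := conj_step hK (l := [5, 9]) (g := [13]) (i := 2)
    (ks := [1, 3, 4, 7, 9, 10, 13, 15, 16, 19, 21, 22])
    (ps := [[], [], [], [], [], padd (X 5) (pmul (Xe 9) (X 13)), [], [], [], X 9, [], []])
    (by decide +kernel) (by decide) l3 (by decide) 0 (f3 5 / f3 9 ^ 2 ^ m) (fun _ => rfl) (fun h => absurd List.mem_cons_self h)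
  simp (disch := norm_num) only [sel, List.map_cons, List.map_nil, pev_X, pev_Xe, pev_padd, pev_pmul, pev_nil] at s4
  simp [vals, vv] at s4
  obtain ⟨d0, d1, d2, d3, d4, d5, d6, d7, d8, d9, d10, d11⟩ := s4
  rw [mul_div_cancel₀ _ (pow_ne_zero _ n3), CharTwo.add_self_eq_zero] at d5
  have l4 : Live [9] f4 := by
    intro j hj
    fin_cases j <;> simp_all [zero_pow he]
  have e := ((r1.trans r2).trans r3).trans r4
  rw [Uel_Pw7 hK l4, d9, c9, b9, a9] at e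
  exact e

/-- The conclusion. -/
abbrev Concl (e : ℕ) (x : GL chevF4.Idx K) : Prop :=
  (∃ t, t ≠ 0 ∧ RC e x (Pw e 7 t 0)) ∨ ∃ u, u ≠ 0 ∧ RC e x (Pw e 2 0 u)

omit [CharP K 2] [Fintype K] hK in
theorem Concl.of_rc {e : ℕ} {x y : GL chevF4.Idx K} (h : RC e x y) : Concl e y → Concl e x
  | Or.inl ⟨t, ht, r⟩ => Or.inl ⟨t, ht, h.trans r⟩
  | Or.inr ⟨u, hu, r⟩ => Or.inr ⟨u, hu, h.trans r⟩

theorem caseZ3 {f : Par K} (hf : Live [3, 5, 6, 8] f) (h3 : f 3 ≠ 0) : Concl (2 ^ m) (Uel (2 ^ m) f) := by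
  have he : (2 : ℕ) ^ m ≠ 0 := by positivity
  obtain ⟨κ, hκ, hstep⟩ := refl_step hK ⟨0, by decide⟩ (l := [3, 5, 6, 8]) (ks := [1, 3, 4, 9, 15, 19, 21, 22])
    (ps := [[], [], [], [], [], pvar 7, [], []]) (by decide +kernel)
  obtain ⟨f1, r1, s1⟩ := hstep f hf
  simp [sel, vals, pev_scaled, pev_nil] at s1
  obtain ⟨a0, a1, a2, a4, a7, a9, a10, a11⟩ := s1
  have l1 : Live [3, 5, 6, 8, 9] f1 := by
    intro j hj
    fin_cases j <;> simp_all [zero_pow he]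
  have n1 : f1 9 ≠ 0 := a9 ▸ mul_ne_zero (hκ 7 (by norm_num)) h3
  exact Concl.of_rc r1 (Or.inl ⟨_, n1, toPw7 hK l1 n1⟩)

theorem caseZ2 {f : Par K} (hf : Live [2, 3, 5, 6, 8] f) (h2 : f 2 ≠ 0) : Concl (2 ^ m) (Uel (2 ^ m) f) := by
  have he : (2 : ℕ) ^ m ≠ 0 := by positivity
  have hne : f 2 ^ 2 ^ m * f 2 ^ 2 ^ m ≠ 0 := mul_ne_zero (pow_ne_zero _ h2) (pow_ne_zero _ h2)
  obtain ⟨f1, r1, s1⟩ := conj_step hK (l := [2, 3, 5, 6, 8]) (g := [12]) (i := 8)
    (ks := [1, 3, 4, 7, 9, 15, 19, 21, 22])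
    (ps := [[], [], X 2, padd (X 3) (pmul (pmul (Xe 2) (Xe 2)) (X 12)), [], [], [], [], []])
    (by decide +kernel) (by decide) hf (by decide) (f 3 / (f 2 ^ 2 ^ m * f 2 ^ 2 ^ m)) 0 (fun h => absurd List.mem_cons_self h) (fun _ => rfl)
  simp (disch := norm_num) only [sel, List.map_cons, List.map_nil, pev_X, pev_Xe, pev_padd, pev_pmul, pev_nil] at s1
  simp [vals, vv] at s1
  obtain ⟨a0, a1, a2, a3, a4, a7, a9, a10, a11⟩ := s1
  rw [mul_div_cancel₀ _ hne, CharTwo.add_self_eq_zero] at a3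
  rw [a1, zero_pow he, zero_mul, zero_add] at a2
  have l1 : Live [2, 5, 6, 8] f1 := by
    intro j hj
    fin_cases j <;> simp_all [zero_pow he]
  rw [← a2] at hne h2
  obtain ⟨f2, r2, s2⟩ := conj_step hK (l := [2, 5, 6, 8]) (g := [13]) (i := 8)
    (ks := [1, 3, 4, 7, 9, 13, 15, 19, 21, 22])
    (ps := [[], [], X 2, [], [], padd (X 6) (pmul (pmul (Xe 2) (Xe 2)) (pmul (Xe 13) (Xe 13))), [], [], [], []])
    (by decide +kernel) (by decide) l1 (by decide) 0 ((f1 6 / (f1 2 ^ 2 ^ m * f1 2 ^ 2 ^ m)) ^ 2 ^ m)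
    (fun _ => rfl) (fun h => absurd List.mem_cons_self h)
  simp (disch := norm_num) only [sel, List.map_cons, List.map_nil, pev_X, pev_Xe, pev_padd, pev_pmul, pev_nil] at s2
  simp [vals, vv] at s2
  obtain ⟨b0, b1, b2, b3, b4, b6, b7, b9, b10, b11⟩ := s2
  rw [root_sq hK, mul_div_cancel₀ _ hne, CharTwo.add_self_eq_zero] at b6
  rw [b1, zero_pow he, zero_mul, zero_add] at b2
  have l2 : Live [2, 5, 8] f2 := by
    intro j hj
    fin_cases j <;> simp_all [zero_pow he]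
  rw [← b2] at hne h2
  by_cases h8 : f2 8 = 0
  · have l2' : Live [2, 5] f2 := by
      intro j hj
      fin_cases j <;> simp_all [zero_pow he]
    obtain ⟨f3, r3, s3⟩ := conj_step hK (l := [2, 5]) (g := [12]) (i := 7)
      (ks := [1, 3, 4, 7, 9, 10, 13, 15, 16, 19, 21, 22])
      (ps := [[], [], X 2, [], [], padd (X 5) (pmul (X 2) (Xe 12)), [], [], [], [], [], []])
      (by decide +kernel) (by decide) l2' (by decide) ((f2 5 / f2 2) ^ (2 * 2 ^ m)) 0 (fun h => absurd List.mem_cons_self h) (fun _ => rfl)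
    simp (disch := norm_num) only [sel, List.map_cons, List.map_nil, pev_X, pev_Xe, pev_padd, pev_pmul, pev_nil] at s3
    simp [vals, vv] at s3
    obtain ⟨c0, c1, c2, c3, c4, c5, c6, c7, c8, c9, c10, c11⟩ := s3
    rw [root_e hK, mul_div_cancel₀ _ h2, CharTwo.add_self_eq_zero] at c5
    rw [c1, zero_pow he, zero_mul, zero_add] at c2
    have l3 : Live [2] f3 := by
      intro j hj
      fin_cases j <;> simp_all [zero_pow he]
    refine Concl.of_rc ((r1.trans r2).trans r3) (Or.inr ⟨f3 2, c2 ▸ h2, ?_⟩)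
    rw [Uel_Pw2 hK l3]
    exact RC.refl _ _
  · obtain ⟨f3, r3, s3⟩ := conj_step hK (l := [2, 5, 8]) (g := [13]) (i := 8)
      (ks := [1, 3, 4, 7, 9, 13, 15, 16, 19, 21, 22])
      (ps := [[], [], X 2, [], [], pmul (pmul (Xe 2) (Xe 2)) (pmul (Xe 13) (Xe 13)), [],
        padd (X 8) (pmul (X 2) (pmul (Xe 13) (Xe 13))), [], [], []])
      (by decide +kernel) (by decide) l2 (by decide) 0 ((f2 8 / f2 2) ^ 2 ^ m) (fun _ => rfl) (fun h => absurd List.mem_cons_self h)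
    simp (disch := norm_num) only [sel, List.map_cons, List.map_nil, pev_X, pev_Xe, pev_padd, pev_pmul, pev_nil] at s3
    simp [vals, vv] at s3
    obtain ⟨c0, c1, c2, c3, c4, c6, c7, c8, c9, c10, c11⟩ := s3
    rw [root_sq hK] at c6 c8
    rw [mul_div_cancel₀ _ h2, CharTwo.add_self_eq_zero] at c8
    have n6 : f3 6 ≠ 0 := c6 ▸ mul_ne_zero hne (div_ne_zero h8 h2)
    have l3 : Live [2, 5, 6] f3 := by
      intro j hj
      fin_cases j <;> simp_all [zero_pow he]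
    obtain ⟨κ, hκ, hstep⟩ := refl_step hK ⟨1, by decide⟩ (l := [2, 5, 6]) (ks := [1, 3, 4, 7, 9, 15, 19, 21, 22])
      (ps := [[], [], [], pvar 13, [], [], [], [], []]) (by decide +kernel)
    obtain ⟨f4, r4, s4⟩ := hstep f3 l3
    simp [sel, vals, pev_scaled, pev_nil] at s4
    obtain ⟨d0, d1, d2, d3, d4, d7, d9, d10, d11⟩ := s4
    have l4 : Live [3, 5, 6, 8] f4 := by
      intro j hj
      fin_cases j <;> simp_all [zero_pow he]
    exact Concl.of_rc (((r1.trans r2).trans r3).trans r4)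
      (caseZ3 hK l4 (d3 ▸ mul_ne_zero (hκ 13 (by norm_num)) n6))

theorem caseZ68 {f : Par K} (hf : Live [5, 6, 8] f) (h : f 6 ≠ 0 ∨ f 8 ≠ 0) : Concl (2 ^ m) (Uel (2 ^ m) f) := by
  have he : (2 : ℕ) ^ m ≠ 0 := by positivity
  obtain ⟨κ, hκ, hstep⟩ := refl_step hK ⟨1, by decide⟩ (l := [5, 6, 8]) (ks := [1, 3, 4, 7, 9, 15, 19, 21, 22])
    (ps := [[], [], pvar 16, pvar 13, [], [], [], [], []]) (by decide +kernel)
  obtain ⟨f1, r1, s1⟩ := hstep f hf
  simp [sel, vals, pev_scaled, pev_nil, hf 7 (by decide), zero_pow he] at s1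
  obtain ⟨a0, a1, a2, a3, a4, a7, a9, a10, a11⟩ := s1
  rw [a1, zero_pow he, zero_mul, zero_add] at a2
  refine Concl.of_rc r1 ?_
  by_cases h2 : f1 2 = 0
  · have h8 : f 8 = 0 := by
      simpa [hκ 16 (by norm_num)] using a2.symm.trans h2
    have h6 : f 6 ≠ 0 := h.resolve_right fun x => x h8
    have l1 : Live [3, 5, 6, 8] f1 := by
      intro j hj
      fin_cases j <;> simp_all [zero_pow he]
    exact caseZ3 hK l1 (a3 ▸ mul_ne_zero (hκ 13 (by norm_num)) h6)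
  · have l1 : Live [2, 3, 5, 6, 8] f1 := by
      intro j hj
      fin_cases j <;> simp_all [zero_pow he]
    exact caseZ2 hK l1 h2

theorem caseZ5 {f : Par K} (hf : Live [5] f) (h5 : f 5 ≠ 0) : Concl (2 ^ m) (Uel (2 ^ m) f) := by
  have he : (2 : ℕ) ^ m ≠ 0 := by positivity
  obtain ⟨κ, hκ, hstep⟩ := refl_step hK ⟨0, by decide⟩ (l := [5]) (ks := [1, 3, 4, 7, 9, 15, 16, 19, 21, 22])
    (ps := [[], [], [], [], [], [], pvar 10, [], [], []]) (by decide +kernel)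
  obtain ⟨f1, r1, s1⟩ := hstep f hf
  simp [sel, vals, pev_scaled, pev_nil, hf 4 (by decide), zero_pow he] at s1
  obtain ⟨a0, a1, a2, a3, a4, a7, a8, a9, a10, a11⟩ := s1
  have l1 : Live [5, 6, 8] f1 := by
    intro j hj
    fin_cases j <;> simp_all [zero_pow he]
  rw [a7, zero_pow he, zero_mul, zero_add] at a8
  exact Concl.of_rc r1 (caseZ68 hK l1 (Or.inr (a8 ▸ mul_ne_zero (hκ 10 (by norm_num)) h5)))

omit [CharP K 2] [Fintype K] hK in
theorem Live.drop {l : List ℕ} {f : Par K} (hf : Live l f) (a : Fin 12) (ha : f a = 0) :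
    Live (l.filter fun x => x != a.val) f := by
  intro j hj
  by_cases h : j = a
  · rw [h, ha]
  · refine hf j fun hl => hj (List.mem_filter.2 ⟨hl, ?_⟩)
    simpa using fun e => h (Fin.ext e)

omit [CharP K 2] [Fintype K] hK in
theorem live_all (f : Par K) : Live [0, 1, 2, 3, 4, 5, 6, 7, 8, 9, 10, 11] f := by
  intro j hj
  fin_cases j <;> exact absurd (by decide) hj

/-- The vanishing consequences of the equations in case C. -/
theorem caseC_eqs {f : Par K} (hf : Live [1, 2, 3, 4, 5, 6, 7, 8, 9] f)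
    (hsq : Uel (2 ^ m) f * Uel (2 ^ m) f = 1) :
    (f 1 = 0 ∧ f 4 = 0 ∧ f 7 = 0) ∧ (f 2 = 0 ∨ f 9 = 0) := by
  have he : (2 : ℕ) ^ m ≠ 0 := by positivity
  have s := square_step hK (l := [1, 2, 3, 4, 5, 6, 7, 8, 9]) (ks := [4]) (ps := [pmul (X 1) (Xe 1)])
    (by decide +kernel) hf (by decide) hsq
  simp (disch := norm_num) only [List.map_cons, List.map_nil, pev_X, pev_Xe, pev_pmul] at s
  simp [vv] at s
  have l1 : Live [2, 3, 4, 5, 6, 7, 8, 9] f := hf.drop 1 s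
  have s1 := square_step hK (l := [2, 3, 4, 5, 6, 7, 8, 9]) (ks := [10, 13, 16])
    (ps := [padd (pmul (X 4) (Xe 4)) (padd (pmul (Xe 3) (Xe 7)) (pmul (X 2) (Xe 9))), pmul (X 4) (X 7),
      padd (pmul (X 7) (Xe 7)) (pmul (Xe 4) (Xe 9))]) (by decide +kernel) l1 (by decide) hsq
  simp (disch := norm_num) only [List.map_cons, List.map_nil, pev_X, pev_Xe, pev_pmul, pev_padd] at s1
  simp [vv] at s1
  obtain ⟨e10, e13, e16⟩ := s1
  have h47 : f 4 = 0 ∧ f 7 = 0 := by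
    rcases e13 with h4 | h7
    · refine ⟨h4, ?_⟩
      simpa [h4, he] using e16
    · refine ⟨?_, h7⟩
      rcases eq_or_ne (f 4) 0 with h | h
      · exact h
      · have h9 : f 9 = 0 := by simpa [h7, h, he] using e16
        simpa [h7, h9, he] using e10
  exact ⟨⟨s, h47⟩, by simpa [h47.1, h47.2, he] using e10⟩

/-- Case C: the parameters 0, 10, 11 are zero. -/
theorem caseC {f : Par K} (hf : Live [1, 2, 3, 4, 5, 6, 7, 8, 9] f)
    (hsq : Uel (2 ^ m) f * Uel (2 ^ m) f = 1) (hne : Uel (2 ^ m) f ≠ 1) : Concl (2 ^ m) (Uel (2 ^ m) f) := by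
  have he : (2 : ℕ) ^ m ≠ 0 := by positivity
  obtain ⟨⟨h1, h4, h7⟩, h29⟩ := caseC_eqs hK hf hsq
  have l2 : Live [2, 3, 5, 6, 8, 9] f := ((hf.drop 1 h1).drop 4 h4).drop 7 h7
  by_cases h9 : f 9 = 0
  · have l3 : Live [2, 3, 5, 6, 8] f := l2.drop 9 h9
    by_cases h2 : f 2 = 0
    · by_cases h3 : f 3 = 0
      · have l4 : Live [5, 6, 8] f := (l3.drop 2 h2).drop 3 h3
        by_cases h68 : f 6 = 0 ∧ f 8 = 0
        · have l5 : Live [5] f := (l4.drop 6 h68.1).drop 8 h68.2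
          refine caseZ5 hK l5 fun h5 => hne ?_
          simp [Uel, l5 0 (by decide), l5 1 (by decide), l5 2 (by decide), l5 3 (by decide), l5 4 (by decide), h5,
            l5 6 (by decide), l5 7 (by decide), l5 8 (by decide), l5 9 (by decide), l5 10 (by decide),
            l5 11 (by decide), Pw_zero _ he (i := 1), Pw_zero _ he (i := 2), Pw_zero _ he (i := 3),
            Pw_zero _ he (i := 4), Pw_zero _ he (i := 5), Pw_zero _ he (i := 6), Pw_zero _ he (i := 7),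
            Pw_zero _ he (i := 8)]
        · exact caseZ68 hK l4 (not_and_or.1 h68)
      · exact caseZ3 hK ((l3.drop 2 h2)) h3
    · exact caseZ2 hK l3 h2
  · exact Or.inl ⟨_, h9, toPw7 hK (l2.drop 2 (h29.resolve_right h9)) h9⟩

/-- Case A: the first parameter is non-zero. -/
theorem caseA {f : Par K} (h0 : f 0 ≠ 0) (lA : Live [0, 1, 2, 3, 4, 5, 6, 7, 8, 9] f) :
    ∃ f' : Par K, RC (2 ^ m) (Uel (2 ^ m) f) (Uel (2 ^ m) f') ∧ f' 0 = 0 ∧ f' 10 = 0 ∧ f' 11 = 0 := by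
  have he : (2 : ℕ) ^ m ≠ 0 := by positivity
  obtain ⟨f1, r1, s1⟩ := conj_step hK (l := [0, 1, 2, 3, 4, 5, 6, 7, 8, 9]) (g := [12]) (i := 8)
    (ks := [1, 3, 21, 22]) (ps := [X 0, padd (X 1) (pmul (X 0) (X 12)), [], []])
    (by decide +kernel) (by decide) lA (by decide) (f 1 / f 0) 0 (fun h => absurd List.mem_cons_self h) (fun _ => rfl)
  simp (disch := norm_num) only [sel, List.map_cons, List.map_nil, pev_X, pev_Xe, pev_padd, pev_pmul, pev_nil] at s1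
  simp [vals, vv] at s1
  obtain ⟨a0, a1, a10, a11⟩ := s1
  rw [mul_div_cancel₀ _ h0, CharTwo.add_self_eq_zero] at a1
  rw [a10, zero_pow he, zero_mul, zero_add] at a11
  have l1 : Live [0, 2, 3, 4, 5, 6, 7, 8, 9] f1 := (((live_all f1).drop 1 a1).drop 10 a10).drop 11 a11
  have n0 : f1 0 ≠ 0 := a0 ▸ h0
  obtain ⟨f2, r2, s2⟩ := conj_step hK (l := [0, 2, 3, 4, 5, 6, 7, 8, 9]) (g := [13]) (i := 8)
    (ks := [3, 19, 21, 22]) (ps := [[], padd (X 9) (pmul (X 0) (pmul (X 13) (X 13))), [], []])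
    (by decide +kernel) (by decide) l1 (by decide) 0 (((f1 9 / f1 0) ^ 2 ^ m) ^ 2 ^ m) (fun _ => rfl)
    (fun h => absurd List.mem_cons_self h)
  simp (disch := norm_num) only [sel, List.map_cons, List.map_nil, pev_X, pev_Xe, pev_padd, pev_pmul, pev_nil] at s2
  simp [vals, vv] at s2
  obtain ⟨b1, b9, b10, b11⟩ := s2
  rw [root_sq hK, mul_div_cancel₀ _ n0, CharTwo.add_self_eq_zero] at b9
  rw [b10, zero_pow he, zero_mul, zero_add] at b11
  have l2 : Live [0, 2, 3, 4, 5, 6, 7, 8] f2 := ((((live_all f2).drop 1 b1).drop 9 b9).drop 10 b10).drop 11 b11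
  obtain ⟨κ, -, hstep⟩ := refl_step hK ⟨1, by decide⟩ (l := [0, 2, 3, 4, 5, 6, 7, 8]) (ks := [1, 21, 22])
    (ps := [[], [], []]) (by decide +kernel)
  obtain ⟨f3, r3, s3⟩ := hstep f2 l2
  simp [sel, vals, pev_nil] at s3
  obtain ⟨c0, c10, c11⟩ := s3
  rw [c10, zero_pow he, zero_mul, zero_add] at c11
  exact ⟨f3, (r1.trans r2).trans r3, c0, c10, c11⟩

/-- Case B: the first parameter is zero, the last non-zero. -/
theorem caseB {f : Par K} (h11 : f 11 ≠ 0) (lB : Live [1, 2, 3, 4, 5, 6, 7, 8, 9, 11] f)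
    (hsq : Uel (2 ^ m) f * Uel (2 ^ m) f = 1) :
    ∃ f' : Par K, RC (2 ^ m) (Uel (2 ^ m) f) (Uel (2 ^ m) f') ∧ f' 0 = 0 ∧ f' 10 = 0 ∧ f' 11 = 0 := by
  have he : (2 : ℕ) ^ m ≠ 0 := by positivity
  have s := square_step hK (l := [1, 2, 3, 4, 5, 6, 7, 8, 9, 11]) (ks := [4, 12])
    (ps := [pmul (X 1) (Xe 1), padd (pmul (Xe 4) (Xe 7)) (padd (pmul (X 1) (Xe 9)) (pmul (X 2) (X 11)))])
    (by decide +kernel) lB (by decide) hsq
  simp (disch := norm_num) only [List.map_cons, List.map_nil, pev_X, pev_Xe, pev_pmul, pev_padd] at s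
  simp [vv] at s
  obtain ⟨h1, e12⟩ := s
  simp [h1] at e12
  obtain ⟨f1, r1, s1⟩ := conj_step hK (l := [2, 3, 4, 5, 6, 7, 8, 9, 11]) (g := [12]) (i := 1)
    (ks := [1, 3, 4, 21, 22])
    (ps := [[], [], padd (X 2) (padd (pmul (Xe 7) (X 12)) (padd (pmul (Xe 4) (Xe 12))
      (pmul (X 11) (pmul (X 12) (Xe 12))))), [], X 11])
    (by decide +kernel) (by decide) (lB.drop 1 h1) (by decide) (f 4 ^ 2 ^ m / f 11) 0
    (fun h => absurd List.mem_cons_self h) (fun _ => rfl)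
  simp (disch := norm_num) only [sel, List.map_cons, List.map_nil, pev_X, pev_Xe, pev_padd, pev_pmul, pev_nil] at s1
  simp [vals, vv] at s1
  obtain ⟨a0, a1, a2, a10, a11⟩ := s1
  rw [a1, zero_pow he, zero_mul, zero_add] at a2
  have h2 : f1 2 = 0 := by
    have hd : f 11 * (f 4 ^ 2 ^ m / f 11) = f 4 ^ 2 ^ m := mul_div_cancel₀ _ h11
    have : f 11 * f1 2 = 0 := by
      rw [a2]
      linear_combination e12 + (f 7 ^ 2 ^ m + f 11 * (f 4 ^ 2 ^ m / f 11) ^ 2 ^ m) * hd +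
        (f 4 ^ 2 ^ m * f 11 * (f 4 ^ 2 ^ m / f 11) ^ 2 ^ m) * CharTwo.two_eq_zero (R := K)
    exact (mul_eq_zero.1 this).resolve_left h11
  rw [a10, zero_pow he, zero_mul, zero_add] at a11
  have l1 : Live [3, 4, 5, 6, 7, 8, 9, 11] f1 := ((((live_all f1).drop 0 a0).drop 1 a1).drop 2 h2).drop 10 a10
  obtain ⟨κ, -, hstep⟩ := refl_step hK ⟨0, by decide⟩ (l := [3, 4, 5, 6, 7, 8, 9, 11]) (ks := [1, 21, 22])
    (ps := [[], [], []]) (by decide +kernel)
  obtain ⟨f2, r2, s2⟩ := hstep f1 l1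
  simp [sel, vals, pev_nil] at s2
  obtain ⟨b0, b10, b11⟩ := s2
  rw [b10, zero_pow he, zero_mul, zero_add] at b11
  exact ⟨f2, r1.trans r2, b0, b10, b11⟩

/-- The classification. -/
theorem classify (f : Par K) (hsq : Uel (2 ^ m) f * Uel (2 ^ m) f = 1) (hne : Uel (2 ^ m) f ≠ 1) :
    Concl (2 ^ m) (Uel (2 ^ m) f) := by
  have he : (2 : ℕ) ^ m ≠ 0 := by positivity
  have s := square_step hK (l := [0, 1, 2, 3, 4, 5, 6, 7, 8, 9, 10, 11]) (ks := [15, 22])
    (ps := [padd (pmul (X 1) (pmul (Xe 10) (Xe 10)))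
        (padd (pmul (X 0) (pmul (X 10) (pmul (Xe 10) (Xe 10)))) (pmul (X 0) (pmul (Xe 11) (Xe 11)))),
      pmul (X 10) (Xe 10)]) (by decide +kernel) (live_all f) (by decide) hsq
  simp (disch := norm_num) only [List.map_cons, List.map_nil, pev_X, pev_Xe, pev_pmul, pev_padd] at s
  simp [vv] at s
  obtain ⟨e15, h10⟩ := s
  simp [h10, he] at e15
  obtain ⟨f', r, h0', h10', h11'⟩ : ∃ f' : Par K, RC (2 ^ m) (Uel (2 ^ m) f) (Uel (2 ^ m) f') ∧
      f' 0 = 0 ∧ f' 10 = 0 ∧ f' 11 = 0 := by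
    by_cases h0 : f 0 = 0
    · by_cases h11 : f 11 = 0
      · exact ⟨f, RC.refl _ _, h0, h10, h11⟩
      · exact caseB hK h11 (((live_all f).drop 0 h0).drop 10 h10) hsq
    · exact caseA hK h0 (((live_all f).drop 10 h10).drop 11 (e15.resolve_left h0))
  refine Concl.of_rc r (caseC hK ((((live_all f').drop 0 h0').drop 10 h10').drop 11 h11') (r.sq hsq) fun h => hne ?_)
  obtain ⟨a, -, ha⟩ := r
  rw [h, mul_inv_eq_one, mul_eq_left] at ha
  exact ha

end Cfsg.Agent.TwInvolF4
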