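import Cfsg.Agent.ChevTw.TwF4

/-!
# Collection of words in positive root elements of F₄ in characteristic two (owner: helper31)

Words carry polynomials over the field with two elements; the collection is sound over every field of
characteristic two.
-/

set_option autoImplicit false

namespace Cfsg.Agent.TwInvolF4

open Cfsg.Lie Cfsg.Agent.ChevGrp

/-- A monomial: the exponents of the variables. -/
abbrev Mon := List ℕ

/-- A polynomial over the field with two elements: the list of its monomials. -/
abbrev Pol := List Mon

/-- The code used for ordering monomials. -/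
def mcode (m : Mon) : ℕ := m.foldr (fun e acc => e + 64 * acc) 0

/-- The product of monomials. -/
def mmul : Mon → Mon → Mon
  | [], b => b
  | a, [] => a
  | x :: a, y :: b => (x + y) :: mmul a b

/-- Adding a monomial. -/
def pins (m : Mon) : Pol → Pol
  | [] => [m]
  | x :: p => if m = x then p else if mcode m < mcode x then m :: x :: p else x :: pins m p

/-- The sum. -/
def padd (p q : Pol) : Pol := p.foldr pins q

/-- The product. -/
def pmul (p q : Pol) : Pol := p.foldr (fun m acc => padd (q.map (mmul m)) acc) []

/-- A power. -/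
def ppow (p : Pol) : ℕ → Pol
  | 0 => [[]]
  | k + 1 => pmul p (ppow p k)

/-- A variable. -/
def pvar (i : ℕ) : Pol := [List.replicate i 0 ++ [1]]

variable {K : Type*} [Field K]

/-- The value of a monomial. -/
def mev : List K → Mon → K
  | [], _ => 1
  | _ :: _, [] => 1
  | x :: xs, e :: es => x ^ e * mev xs es

/-- The value of a polynomial. -/
def pev (ρ : List K) (p : Pol) : K := (p.map (mev ρ)).sum

theorem mev_nil (ρ : List K) : mev ρ [] = 1 := by cases ρ <;> rfl

theorem mev_mmul : ∀ (ρ : List K) (a b : Mon), mev ρ (mmul a b) = mev ρ a * mev ρ b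
  | ρ, [], b => by rw [mmul, mev_nil, one_mul]
  | ρ, x :: a, [] => by rw [mmul, mev_nil, mul_one]; simp
  | [], x :: a, y :: b => by simp [mev]
  | v :: ρ, x :: a, y :: b => by
    rw [mmul, mev, mev, mev, mev_mmul ρ a b, pow_add]
    ring

theorem pev_nil (ρ : List K) : pev ρ [] = 0 := rfl

theorem pev_cons (ρ : List K) (m : Mon) (p : Pol) : pev ρ (m :: p) = mev ρ m + pev ρ p := by simp [pev]

variable [CharP K 2]

theorem pev_pins (ρ : List K) (m : Mon) : ∀ p, pev ρ (pins m p) = mev ρ m + pev ρ p
  | [] => by simp [pins, pev]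
  | x :: p => by
    rw [pins]
    split
    · next h => rw [h, pev_cons, ← add_assoc, CharTwo.add_self_eq_zero, zero_add]
    · split
      · rw [pev_cons]
      · rw [pev_cons, pev_pins ρ m p, pev_cons]
        ring

theorem pev_padd (ρ : List K) : ∀ p q, pev ρ (padd p q) = pev ρ p + pev ρ q
  | [], q => by simp [padd, pev]
  | m :: p, q => by
    show pev ρ (pins m (padd p q)) = _
    rw [pev_pins, pev_padd ρ p q, pev_cons, add_assoc]

theorem pev_pmul (ρ : List K) : ∀ p q, pev ρ (pmul p q) = pev ρ p * pev ρ q
  | [], q => by simp [pmul, pev]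
  | m :: p, q => by
    show pev ρ (padd (q.map (mmul m)) (pmul p q)) = _
    have h : pev ρ (q.map (mmul m)) = mev ρ m * pev ρ q := by
      simp [pev, List.map_map, Function.comp_def, mev_mmul, List.sum_map_mul_left]
    rw [pev_padd, h, pev_pmul ρ p q, pev_cons]
    ring

theorem pev_ppow (ρ : List K) (p : Pol) : ∀ k, pev ρ (ppow p k) = pev ρ p ^ k
  | 0 => by simp [ppow, pev, mev_nil]
  | k + 1 => by rw [ppow, pev_pmul, pev_ppow ρ p k, pow_succ']

/-- The orbit blocks in angular order. -/
def blocks : List (List ℕ) :=
  [[33, 24], [34, 26, 36, 42], [38, 43], [29, 41, 44, 47], [39, 45], [35, 31, 40, 46], [37, 32], [27, 25, 28, 30]]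

/-- The positive roots, block by block. -/
def rorder : List ℕ :=
  [33, 24, 34, 26, 36, 42, 38, 43, 29, 41, 44, 47, 39, 45, 35, 31, 40, 46, 37, 32, 27, 25, 28, 30]

/-- The position of a root. -/
def rpos (r : ℕ) : ℕ := rorder.idxOf r

/-- A symbolic word. -/
abbrev SWord := List (ℕ × Pol)

/-- The value of a symbolic word. -/
noncomputable def wev (ρ : List K) (w : SWord) : GL chevF4.Idx K :=
  (w.map fun q => xGL chevF4 K q.1 (pev ρ q.2)).prod

theorem wev_nil (ρ : List K) : wev (K := K) ρ [] = 1 := rfl

theorem wev_cons (ρ : List K) (q : ℕ × Pol) (w : SWord) :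
    wev ρ (q :: w) = xGL chevF4 K q.1 (pev ρ q.2) * wev ρ w := by simp [wev]

theorem wev_append (ρ : List K) (v w : SWord) : wev ρ (v ++ w) = wev ρ v * wev ρ w := by simp [wev]

/-- The terms passed when `(b, v)` moves to the right of `(a, t)`. -/
def extra (a b : ℕ) (t v : Pol) : SWord :=
  ((chevF4.commTerms a b).filter fun c => c.2.1 % 2 != 0).map fun c =>
    (c.1, pmul (ppow t c.2.2.1) (ppow v c.2.2.2))

/-- Whether the commutator formula applies. -/
def canSwap (a b : ℕ) : Bool :=
  decide (a < chevF4.nroots) && decide (b < chevF4.nroots) && b != a && b != chevF4.neg a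

/-- Inserting a letter into a word. -/
def ins : ℕ → ℕ × Pol → SWord → SWord
  | 0, q, w => q :: w
  | _ + 1, q, [] => if q.2 = [] ∧ q.1 < chevF4.nroots then [] else [q]
  | fuel + 1, (b, v), (a, t) :: w =>
    if v = [] ∧ b < chevF4.nroots then (a, t) :: w
    else if b = a ∧ a < chevF4.nroots then
      if padd v t = [] then w else (a, padd v t) :: w
    else if rpos a < rpos b ∧ canSwap a b = true then
      (a, t) :: ((b, v) :: extra a b t v).foldr (fun q acc => ins fuel q acc) w
    else (b, v) :: (a, t) :: w

/-- The collected form. -/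
def collect (w : SWord) : SWord := w.foldr (fun q acc => ins 64 q acc) []

theorem x_zero' {r : ℕ} (hr : r < chevF4.nroots) : xGL chevF4 K r 0 = 1 := (glSys (ChevTw.rulesF4 K)).x_zero hr

theorem x_add' {r : ℕ} (hr : r < chevF4.nroots) (t u : K) :
    xGL chevF4 K r t * xGL chevF4 K r u = xGL chevF4 K r (t + u) := (glSys (ChevTw.rulesF4 K)).x_add r hr t u

theorem wev_extra (ρ : List K) (a b : ℕ) (t v : Pol) (hlt : ∀ c ∈ chevF4.commTerms a b, c.1 < chevF4.nroots) :
    wev ρ (extra a b t v) =
      ((chevF4.commWord K a b (pev ρ t) (pev ρ v)).map fun q => xGL chevF4 K q.1 q.2).prod := by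
  rw [ChevalleyDatum.commWord, extra, List.map_map]
  revert hlt
  generalize chevF4.commTerms a b = L
  intro hlt
  induction L with
  | nil => simp [wev]
  | cons c L ih =>
    have hc := hlt c List.mem_cons_self
    rw [List.map_cons, List.prod_cons, ← ih fun d hd => hlt d (List.mem_cons_of_mem _ hd), List.filter_cons]
    by_cases h : c.2.1 % 2 = 0
    · have h0 : ((c.2.1 : ℤ) : K) = 0 := (CharP.intCast_eq_zero_iff K 2 _).2 (Int.dvd_of_emod_eq_zero h)
      simp [h, Function.comp_apply, h0, x_zero' hc]
    · have h0 : ((c.2.1 : ℤ) : K) = 1 := by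
        have h2 : c.2.1 % 2 = 1 := by omega
        obtain ⟨k, hk⟩ := Int.odd_iff.2 h2
        rw [hk]
        simp [CharTwo.two_eq_zero]
      simp [h, Function.comp_apply, h0, wev_cons, pev_pmul, pev_ppow, CharTwo.neg_eq]

theorem commTerms_lt : ∀ a < chevF4.nroots, ∀ b < chevF4.nroots, ∀ c ∈ chevF4.commTerms a b,
    c.1 < chevF4.nroots := by decide +kernel

theorem wev_ins (ρ : List K) : ∀ (fuel : ℕ) (q : ℕ × Pol) (w : SWord),
    wev ρ (ins fuel q w) = xGL chevF4 K q.1 (pev ρ q.2) * wev ρ w := by
  intro fuel
  induction fuel with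
  | zero => intro q w; rw [ins, wev_cons]
  | succ fuel ih =>
    intro q w
    obtain ⟨b, v⟩ := q
    cases w with
    | nil =>
      rw [ins]
      split
      · next h =>
        obtain ⟨h1, h2⟩ := h
        rw [h1, pev_nil, x_zero' h2, one_mul]
      · rw [wev_cons]
    | cons p w =>
      obtain ⟨a, t⟩ := p
      rw [ins]
      split
      · next h => rw [h.1, pev_nil, x_zero' h.2, one_mul]
      · split
        · next h =>
          obtain ⟨rfl, h2⟩ := h
          split
          · next h3 =>
            rw [wev_cons, ← mul_assoc, x_add' h2, ← pev_padd, h3, pev_nil, x_zero' h2, one_mul]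
          · rw [wev_cons, wev_cons, ← mul_assoc, x_add' h2, pev_padd]
        · split
          · next h =>
            obtain ⟨-, h⟩ := h
            simp only [canSwap, Bool.and_eq_true, decide_eq_true_eq, bne_iff_ne] at h
            obtain ⟨⟨⟨ha, hb⟩, hne⟩, hneg⟩ := h
            have hfold : ∀ L : SWord, wev ρ (L.foldr (fun q acc => ins fuel q acc) w) = wev ρ L * wev ρ w := by
              intro L
              induction L with
              | nil => simp [wev]
              | cons q L ihL => rw [List.foldr_cons, ih, ihL, wev_cons, mul_assoc]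
            rw [wev_cons, hfold, wev_cons, wev_cons, wev_extra ρ a b t v (commTerms_lt a ha b hb)]
            have e := (glSys (ChevTw.rulesF4 K)).comm a ha b hb hne hneg (pev ρ t) (pev ρ v)
            rw [← mul_assoc (xGL chevF4 K b _), show xGL chevF4 K b (pev ρ v) * xGL chevF4 K a (pev ρ t) = _ from e]
            simp [mul_assoc]
            rfl
          · rw [wev_cons]

theorem wev_collect (ρ : List K) : ∀ w : SWord, wev ρ (collect w) = wev ρ w
  | [] => rfl
  | q :: w => by
    show wev ρ (ins 64 q (collect w)) = _
    rw [wev_ins, wev_collect ρ w, wev_cons]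

/-- Words with the same collected form have the same value. -/
theorem wev_eq {v w : SWord} (h : collect v = collect w) (ρ : List K) : wev ρ v = wev ρ w := by
  rw [← wev_collect ρ v, h, wev_collect]

/-- The coordinates of a collected word. -/
def coordsAux : List ℕ → SWord → Option (List Pol)
  | [], [] => some []
  | [], _ :: _ => none
  | r :: L, [] => (coordsAux L []).map ([] :: ·)
  | r :: L, (a, t) :: w => if r = a then (coordsAux L w).map (t :: ·) else (coordsAux L ((a, t) :: w)).map ([] :: ·)

/-- The coordinates of a word. -/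
def coords (w : SWord) : Option (List Pol) := coordsAux rorder (collect w)

theorem wev_coordsAux (ρ : List K) : ∀ (L : List ℕ) (w : SWord) (cs : List Pol), (∀ r ∈ L, r < chevF4.nroots) →
    coordsAux L w = some cs → cs.length = L.length ∧
      wev ρ w = (List.zipWith (xGL chevF4 K) L (cs.map (pev ρ))).prod := by
  intro L
  induction L with
  | nil =>
    intro w cs _ h
    cases w with
    | nil => simp [coordsAux] at h; subst h; simp [wev]
    | cons _ _ => simp [coordsAux] at h
  | cons r L ih =>
    intro w cs hL h
    have hL' : ∀ s ∈ L, s < chevF4.nroots := fun s hs => hL s (List.mem_cons_of_mem _ hs)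
    cases w with
    | nil =>
      simp only [coordsAux, Option.map_eq_some_iff] at h
      obtain ⟨cs', h', rfl⟩ := h
      obtain ⟨h1, h2⟩ := ih _ _ hL' h'
      refine ⟨by simp [h1], ?_⟩
      rw [List.map_cons, List.zipWith_cons_cons, List.prod_cons, pev_nil, x_zero' (hL r List.mem_cons_self),
        one_mul, h2]
    | cons p w =>
      obtain ⟨a, t⟩ := p
      rw [coordsAux] at h
      split at h
      · next hr =>
        subst hr
        simp only [Option.map_eq_some_iff] at h
        obtain ⟨cs', h', rfl⟩ := h
        obtain ⟨h1, h2⟩ := ih _ _ hL' h'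
        refine ⟨by simp [h1], ?_⟩
        rw [List.map_cons, List.zipWith_cons_cons, List.prod_cons, wev_cons, h2]
      · simp only [Option.map_eq_some_iff] at h
        obtain ⟨cs', h', rfl⟩ := h
        obtain ⟨h1, h2⟩ := ih _ _ hL' h'
        refine ⟨by simp [h1], ?_⟩
        rw [List.map_cons, List.zipWith_cons_cons, List.prod_cons, pev_nil, x_zero' (hL r List.mem_cons_self),
          one_mul, h2]

theorem rorder_lt : ∀ r ∈ rorder, r < chevF4.nroots := by decide +kernel

theorem wev_coords {w : SWord} {cs : List Pol} (h : coords w = some cs) (ρ : List K) : cs.length = 24 ∧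
    wev ρ w = (List.zipWith (xGL chevF4 K) rorder (cs.map (pev ρ))).prod := by
  obtain ⟨h1, h2⟩ := wev_coordsAux ρ rorder _ cs rorder_lt h
  exact ⟨h1, (wev_collect ρ w).symm.trans h2⟩

/-- The selector of a block. -/
def blockSym (i : ℕ) (t T u U : Pol) : SWord :=
  if i % 2 = 1 then List.zip (blocks.getD (i - 1) []) [T, t]
  else List.zip (blocks.getD (i - 1) []) [T, t, padd (pmul T t) u, pmul U U]

end Cfsg.Agent.TwInvolF4
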