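import Cfsg.Agent.TwInvolF4.Collect
import Cfsg.Agent.ChevTw.TwF4Thms

/-!
# The root groups of the unipotent group of ²F₄(q) and their coordinates (owner: helper31)
-/

set_option autoImplicit false

namespace Cfsg.Agent.TwInvolF4

open Cfsg.Lie Cfsg.Agent.ChevGrp Cfsg.Agent.ChevTw

theorem block_table : ∀ i : Fin 8,
    ((List.range (blocks.getD i.val []).length).map fun k =>
      (twF4.root ((blocks.getD i.val []).getD k 0), isoF4.expo ((blocks.getD i.val []).getD k 0))) =
    if i.val % 2 = 0 then [((blocks.getD i.val []).getD 1 0, 2), ((blocks.getD i.val []).getD 0 0, 1)]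
    else [((blocks.getD i.val []).getD 1 0, 2), ((blocks.getD i.val []).getD 0 0, 1),
      ((blocks.getD i.val []).getD 3 0, 2), ((blocks.getD i.val []).getD 2 0, 1)] := by decide +kernel

theorem rorder_iff : ∀ r < chevF4.nroots, (r ∈ rorder ↔ chevF4.IsPosRoot r) := by decide +kernel

theorem enum_rorder : Enum (posSet chevF4) rorder :=
  ⟨by decide, fun r => ⟨fun h => (rorder_iff r (rorder_lt r h)).1 h,
    fun h => (rorder_iff r h.1).2 h⟩⟩

variable {K : Type*} [Field K]

/-- An element of a root group of ²F₄, `i` from 1 to 8. -/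
noncomputable def Pw (e i : ℕ) (t u : K) : GL chevF4.Idx K :=
  (List.zipWith (xGL chevF4 K) (blocks.getD (i - 1) [])
    (if i % 2 = 1 then [t ^ e, t] else [t ^ e, t, t ^ e * t + u, u ^ e * u ^ e])).prod

theorem Pw_odd_zero (e : ℕ) (he : e ≠ 0) {i : ℕ} (hi : i ∈ [1, 3, 5, 7]) (u : K) : Pw e i 0 u = 1 := by
  have hz : ∀ r ∈ rorder, xGL chevF4 K r 0 = 1 := fun r hr => (glSys (rulesF4 K)).x_zero (rorder_lt r hr)
  simp only [rorder, List.mem_cons, List.not_mem_nil, or_false, forall_eq_or_imp, forall_eq] at hz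
  obtain ⟨z1, z2, z3, z4, z5, z6, z7, z8, z9, z10, z11, z12, z13, z14, z15, z16, z17, z18, z19, z20, z21, z22,
    z23, z24⟩ := hz
  fin_cases hi <;> simp [Pw, blocks, zero_pow he, *]

theorem Pw_zero (e : ℕ) (he : e ≠ 0) {i : ℕ} (hi : i ∈ [1, 2, 3, 4, 5, 6, 7, 8]) : Pw e i (0 : K) 0 = 1 := by
  have hz : ∀ r ∈ rorder, xGL chevF4 K r 0 = 1 := fun r hr => (glSys (rulesF4 K)).x_zero (rorder_lt r hr)
  simp only [rorder, List.mem_cons, List.not_mem_nil, or_false, forall_eq_or_imp, forall_eq] at hz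
  obtain ⟨z1, z2, z3, z4, z5, z6, z7, z8, z9, z10, z11, z12, z13, z14, z15, z16, z17, z18, z19, z20, z21, z22,
    z23, z24⟩ := hz
  fin_cases hi <;> simp [Pw, blocks, zero_pow he, *]

/-- The parameters of a general element of the unipotent group. -/
abbrev Par (K : Type*) := Fin 12 → K

/-- A general element of the unipotent group. -/
noncomputable def Uel (e : ℕ) (f : Par K) : GL chevF4.Idx K :=
  Pw e 1 (f 0) 0 * Pw e 2 (f 1) (f 2) * Pw e 3 (f 3) 0 * Pw e 4 (f 4) (f 5) * Pw e 5 (f 6) 0 *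
    Pw e 6 (f 7) (f 8) * Pw e 7 (f 9) 0 * Pw e 8 (f 10) (f 11)

/-- The coordinates of a general element. -/
def vals (e : ℕ) (f : Par K) : List K :=
  [f 0 ^ e, f 0, f 1 ^ e, f 1, f 1 ^ e * f 1 + f 2, f 2 ^ e * f 2 ^ e, f 3 ^ e, f 3,
    f 4 ^ e, f 4, f 4 ^ e * f 4 + f 5, f 5 ^ e * f 5 ^ e, f 6 ^ e, f 6,
    f 7 ^ e, f 7, f 7 ^ e * f 7 + f 8, f 8 ^ e * f 8 ^ e, f 9 ^ e, f 9,
    f 10 ^ e, f 10, f 10 ^ e * f 10 + f 11, f 11 ^ e * f 11 ^ e]

theorem Uel_eq (e : ℕ) (f : Par K) : Uel e f = (List.zipWith (xGL chevF4 K) rorder (vals e f)).prod := by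
  simp [Uel, Pw, blocks, rorder, vals, mul_assoc]

variable [CharP K 2]

/-- The assignment of the variables: each parameter and its power. -/
def asg (e : ℕ) (v : List K) : List K := v.flatMap fun x => [x, x ^ e]

/-- A root group element as a symbolic word. -/
theorem wev_blockSym {e i : ℕ} (ρ : List K) {t T u U : Pol} (hT : pev ρ T = pev ρ t ^ e)
    (hU : pev ρ U = pev ρ u ^ e) : wev ρ (blockSym i t T u U) = Pw e i (pev ρ t) (pev ρ u) := by
  have key : ∀ (L : List ℕ) (ps : List Pol),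
      wev ρ (List.zip L ps) = (List.zipWith (xGL chevF4 K) L (ps.map (pev ρ))).prod := by
    intro L
    induction L with
    | nil => intro ps; simp [wev]
    | cons r L ih =>
      intro ps
      cases ps with
      | nil => simp [wev]
      | cons p ps => rw [List.zip_cons_cons, wev_cons, ih]; simp
  by_cases h : i % 2 = 1
  · rw [blockSym, if_pos h, key, Pw, if_pos h]
    simp [hT]
  · rw [blockSym, if_neg h, key, Pw, if_neg h]
    simp [hT, hU, pev_padd, pev_pmul]

variable [Fintype K] {m : ℕ} (hK : Fintype.card K = 2 ^ (2 * m + 1))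

include hK

theorem pow_two_e (x : K) : x ^ (2 * 2 ^ m * 2 ^ m) = x := pow_twice hK x

theorem sig_word : ∀ (w : List (ℕ × K)), (∀ q ∈ w, q.1 < chevF4.nroots) →
    (w.map fun q => xGL chevF4 K q.1 q.2).prod ∈ (glSys (rulesF4 K)).Gbar ∧
    (twistF4 hK).sig (w.map fun q => xGL chevF4 K q.1 q.2).prod =
      (w.map fun q => xGL chevF4 K (twF4.root q.1) (q.2 ^ (isoF4.expo q.1 * 2 ^ m))).prod := by
  intro w
  induction w with
  | nil =>
    intro _
    refine ⟨one_mem _, ?_⟩
    have h := (twistF4 hK).sig_mul 1 (one_mem _) 1 (one_mem _)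
    rw [one_mul] at h
    simpa using h.symm
  | cons q w ih =>
    intro h
    obtain ⟨h1, h2⟩ := ih fun x hx => h x (List.mem_cons_of_mem _ hx)
    have hq := h q List.mem_cons_self
    have hx : xGL chevF4 K q.1 q.2 ∈ (glSys (rulesF4 K)).Gbar := (glSys (rulesF4 K)).x_mem_Gbar hq q.2
    refine ⟨by simpa using mul_mem hx h1, ?_⟩
    simp only [List.map_cons, List.prod_cons]
    rw [(twistF4 hK).sig_mul _ hx _ h1, h2]
    congr 1
    exact ((twistF4 hK).sig_x q.1 hq q.2).trans (by rw [twistF4_f, twistF4_ρ]; rfl)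

theorem Pw_mem {i : ℕ} (hi : i ∈ [1, 2, 3, 4, 5, 6, 7, 8]) (t u : K) :
    Pw (2 ^ m) i t u ∈ (glSys (rulesF4 K)).Ubar ⊓ twistedF4 K (2 ^ m) := by
  obtain ⟨len, hR⟩ := (rulesF4 K).root
  have h0 := twF4_ok.isLongest (T := twistF4 hK) (fun _ => rfl) rfl
  refine ((grpF4 hK).fixUbar_eq (rulesF4 K) hR ((orbF4 hK).comm_word hR _) (h0.invSet_eq hR)).2 ?_
  have hU : ∀ r ∈ rorder, ∀ x : K, xGL chevF4 K r x ∈ (glSys (rulesF4 K)).Ubar := fun r hr x =>
    (glSys (rulesF4 K)).x_mem_US ((enum_rorder.2 r).1 hr) x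
  have q1 : ∀ x : K, (x ^ 2 ^ m) ^ (2 * 2 ^ m) = x := fun x => by
    rw [← pow_mul, mul_comm, pow_two_e hK]
  have q2 : ∀ x : K, (x ^ 2 ^ m * x ^ 2 ^ m) ^ (1 * 2 ^ m) = x := fun x => by
    rw [← pow_two, ← pow_mul, ← pow_mul, one_mul,
      show 2 ^ m * (2 * 2 ^ m) = 2 * 2 ^ m * 2 ^ m by ring, pow_two_e hK]
  have q3 : ∀ x y : K, (x ^ 2 ^ m * x + y) ^ (2 * 2 ^ m) =
      x * (x ^ 2 ^ m * x ^ 2 ^ m) + y ^ 2 ^ m * y ^ 2 ^ m := fun x y => by
    rw [show 2 * 2 ^ m = 2 ^ (m + 1) by ring, add_pow_char_pow, mul_pow, pow_succ,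
      show 2 ^ m * 2 = 2 ^ m + 2 ^ m by ring, pow_add, pow_add, ← pow_add (x ^ 2 ^ m), ← pow_mul,
      show 2 ^ m * (2 ^ m + 2 ^ m) = 2 * 2 ^ m * 2 ^ m by ring, pow_two_e hK]
    ring
  have two : ∀ a b : ℕ, blocks.getD (i - 1) [] = [a, b] → i % 2 = 1 →
      twF4.root a = b → twF4.root b = a → isoF4.expo a = 2 → isoF4.expo b = 1 →
      collect (List.zip [b, a] [pvar 0, pvar 1]) = collect (List.zip [a, b] [pvar 1, pvar 0]) →
      a ∈ rorder → b ∈ rorder →
      Pw (2 ^ m) i t u ∈ (glSys (rulesF4 K)).Ubar ∧ (twistF4 hK).sig (Pw (2 ^ m) i t u) = Pw (2 ^ m) i t u := by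
    intro a b hb hodd ra rb ea eb hc ma mb
    have e : Pw (2 ^ m) i t u = ([(a, t ^ 2 ^ m), (b, t)].map fun q => xGL chevF4 K q.1 q.2).prod := by
      simp only [Pw, hb, hodd, if_true, List.zipWith_cons_cons, List.zipWith_nil_left, List.map_cons, List.map_nil,
        List.prod_cons, List.prod_nil, mul_one]
    refine ⟨e ▸ by simpa using mul_mem (hU a ma _) (hU b mb _), ?_⟩
    obtain ⟨-, hs⟩ := sig_word hK [(a, t ^ 2 ^ m), (b, t)] (by
      simp [rorder_lt a ma, rorder_lt b mb])
    rw [e, hs]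
    have h := wev_eq hc [t, t ^ 2 ^ m]
    simpa [wev, pev, pvar, mev, ra, rb, ea, eb, q1] using h
  have four : ∀ a b c d : ℕ, blocks.getD (i - 1) [] = [a, b, c, d] → i % 2 ≠ 1 →
      twF4.root a = b → twF4.root b = a → twF4.root c = d → twF4.root d = c →
      isoF4.expo a = 2 → isoF4.expo b = 1 → isoF4.expo c = 2 → isoF4.expo d = 1 →
      collect (List.zip [b, a, d, c] [pvar 0, pvar 1,
          padd (pmul (pvar 0) (pmul (pvar 1) (pvar 1))) (pmul (pvar 3) (pvar 3)), pvar 2]) =
        collect (List.zip [a, b, c, d] [pvar 1, pvar 0, padd (pmul (pvar 1) (pvar 0)) (pvar 2),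
          pmul (pvar 3) (pvar 3)]) →
      a ∈ rorder → b ∈ rorder → c ∈ rorder → d ∈ rorder →
      Pw (2 ^ m) i t u ∈ (glSys (rulesF4 K)).Ubar ∧ (twistF4 hK).sig (Pw (2 ^ m) i t u) = Pw (2 ^ m) i t u := by
    intro a b c d hb hev ra rb rc rd ea eb ec ed hc ma mb mc md
    have e : Pw (2 ^ m) i t u = ([(a, t ^ 2 ^ m), (b, t), (c, t ^ 2 ^ m * t + u),
        (d, u ^ 2 ^ m * u ^ 2 ^ m)].map fun q => xGL chevF4 K q.1 q.2).prod := by
      simp only [Pw, hb, hev, if_false, List.zipWith_cons_cons, List.zipWith_nil_left, List.map_cons, List.map_nil,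
        List.prod_cons, List.prod_nil, mul_one]
    refine ⟨e ▸ by simpa using mul_mem (hU a ma _) (mul_mem (hU b mb _) (mul_mem (hU c mc _) (hU d md _))), ?_⟩
    obtain ⟨-, hs⟩ := sig_word hK [(a, t ^ 2 ^ m), (b, t), (c, t ^ 2 ^ m * t + u),
        (d, u ^ 2 ^ m * u ^ 2 ^ m)] (by
      simp [rorder_lt a ma, rorder_lt b mb, rorder_lt c mc, rorder_lt d md])
    rw [e, hs]
    have h := wev_eq hc [t, t ^ 2 ^ m, u, u ^ 2 ^ m]
    simp only [List.map_cons, List.map_nil, List.prod_cons, List.prod_nil, mul_one, ra, rb, rc, rd, ea, eb,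
      ec, ed, q1, q2, q3]
    simp only [wev, List.zip_cons_cons, List.zip_nil_left, List.map_cons, List.map_nil, pev_padd, pev_pmul] at h
    simpa [pev, pvar, mev, mul_assoc, List.replicate] using h
  fin_cases hi
  · exact two 33 24 rfl rfl (by decide +kernel) (by decide +kernel) (by decide +kernel) (by decide +kernel)
      (by decide +kernel) (by decide) (by decide)
  · exact four 34 26 36 42 rfl (by decide) (by decide +kernel) (by decide +kernel) (by decide +kernel)
      (by decide +kernel) (by decide +kernel) (by decide +kernel) (by decide +kernel) (by decide +kernel)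
      (by decide +kernel) (by decide) (by decide) (by decide) (by decide)
  · exact two 38 43 rfl rfl (by decide +kernel) (by decide +kernel) (by decide +kernel) (by decide +kernel)
      (by decide +kernel) (by decide) (by decide)
  · exact four 29 41 44 47 rfl (by decide) (by decide +kernel) (by decide +kernel) (by decide +kernel)
      (by decide +kernel) (by decide +kernel) (by decide +kernel) (by decide +kernel) (by decide +kernel)
      (by decide +kernel) (by decide) (by decide) (by decide) (by decide)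
  · exact two 39 45 rfl rfl (by decide +kernel) (by decide +kernel) (by decide +kernel) (by decide +kernel)
      (by decide +kernel) (by decide) (by decide)
  · exact four 35 31 40 46 rfl (by decide) (by decide +kernel) (by decide +kernel) (by decide +kernel)
      (by decide +kernel) (by decide +kernel) (by decide +kernel) (by decide +kernel) (by decide +kernel)
      (by decide +kernel) (by decide) (by decide) (by decide) (by decide)
  · exact two 37 32 rfl rfl (by decide +kernel) (by decide +kernel) (by decide +kernel) (by decide +kernel)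
      (by decide +kernel) (by decide) (by decide)
  · exact four 27 25 28 30 rfl (by decide) (by decide +kernel) (by decide +kernel) (by decide +kernel)
      (by decide +kernel) (by decide +kernel) (by decide +kernel) (by decide +kernel) (by decide +kernel)
      (by decide +kernel) (by decide) (by decide) (by decide) (by decide)

theorem Uel_mem (f : Par K) : Uel (2 ^ m) f ∈ (glSys (rulesF4 K)).Ubar ⊓ twistedF4 K (2 ^ m) := by
  have h : ∀ i ∈ [1, 2, 3, 4, 5, 6, 7, 8], ∀ t u : K,
      Pw (2 ^ m) i t u ∈ (glSys (rulesF4 K)).Ubar ⊓ twistedF4 K (2 ^ m) := fun i hi t u => Pw_mem hK hi t u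
  rw [Uel]
  exact mul_mem (mul_mem (mul_mem (mul_mem (mul_mem (mul_mem (mul_mem (h 1 (by simp) _ _) (h 2 (by simp) _ _))
    (h 3 (by simp) _ _)) (h 4 (by simp) _ _)) (h 5 (by simp) _ _)) (h 6 (by simp) _ _)) (h 7 (by simp) _ _))
    (h 8 (by simp) _ _)

omit hK [Fintype K] in
/-- Coordinates are unique. -/
theorem coords_eq {v v' : List K} (hv : v.length = 24) (hv' : v'.length = 24)
    (h : (List.zipWith (xGL chevF4 K) rorder v).prod = (List.zipWith (xGL chevF4 K) rorder v').prod) : v = v' := by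
  obtain ⟨len, hR⟩ := (rulesF4 K).root
  exact zip_unique (S := glSys (rulesF4 K)) hR hR.posSet_closed enum_rorder (by simp [rorder, hv])
    (by simp [rorder, hv']) h

theorem Uel_injective : Function.Injective (Uel (K := K) (2 ^ m)) := by
  intro f g h
  rw [Uel_eq, Uel_eq] at h
  have e := coords_eq (by simp [vals]) (by simp [vals]) h
  simp only [vals, List.cons.injEq, and_true] at e
  obtain ⟨-, h0, -, h1, h2, -, -, h3, -, h4, h5, -, -, h6, -, h7, h8, -, -, h9, -, h10, h11, -⟩ := e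
  rw [h1, add_right_inj] at h2
  rw [h4, add_right_inj] at h5
  rw [h7, add_right_inj] at h8
  rw [h10, add_right_inj] at h11
  funext j
  fin_cases j <;> assumption

theorem exists_Uel {g : GL chevF4.Idx K} (hg : g ∈ (glSys (rulesF4 K)).Ubar ⊓ twistedF4 K (2 ^ m)) :
    ∃ f : Par K, g = Uel (2 ^ m) f := by
  have h := thm_S1090 hK
  rw [posUnipotent_eq (rulesF4 K)] at h
  haveI : Finite ↥((glSys (rulesF4 K)).Ubar ⊓ twistedF4 K (2 ^ m)) :=
    Nat.finite_of_card_ne_zero (by rw [h]; positivity)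
  have hb := (Function.Injective.bijective_of_nat_card_le
    (f := fun f : Par K => (⟨Uel (2 ^ m) f, Uel_mem hK f⟩ : ↥((glSys (rulesF4 K)).Ubar ⊓ twistedF4 K (2 ^ m))))
    (fun a b e => Uel_injective hK (congrArg Subtype.val e :)) (by
      rw [h, Nat.card_fun, Nat.card_fin, Nat.card_eq_fintype_card, hK]))
  obtain ⟨f, hf⟩ := hb.2 ⟨g, hg⟩
  exact ⟨f, (congrArg Subtype.val hf :).symm⟩

end Cfsg.Agent.TwInvolF4
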