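import Cfsg.Agent.TwInvolF4.Core
import Cfsg.Agent.ChevGrp.FieldAut
import Mathlib.LinearAlgebra.Matrix.Rank

/-!
# The two representatives are not conjugate: ranks 21 and 24 (owner: helper31)
-/

set_option autoImplicit false

namespace Cfsg.Agent.TwInvolF4

open Cfsg.Lie Cfsg.Agent.ChevGrp Cfsg.Agent.ChevTw

/-- The number of a coordinate, Cartan part first. -/
def cNum : chevF4.Idx → ℕ
  | Sum.inl i => i.val
  | Sum.inr r => 4 + r.val

/-- The coordinate with a given number. -/
def cAt (k : ℕ) : chevF4.Idx :=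
  if h : k < 4 then Sum.inl ⟨k, h⟩ else Sum.inr ⟨(k - 4) % 48, Nat.mod_lt _ (by decide)⟩

/-- A matrix over two elements given by the bits of its rows. -/
def bitEntry (L : List ℕ) (i j : ℕ) : ZMod 2 := if (L.getD i 0).testBit j then 1 else 0

/-- The left factor of the long element. -/
def longA : Matrix chevF4.Idx (Fin 21) (ZMod 2) := Matrix.of fun i j => bitEntry
    [1, 1, 2, 2, 0, 0, 0, 0, 0, 0, 0, 4, 0, 0, 8, 0, 16, 2, 0, 4, 0, 32, 0, 64, 128, 0, 16, 0, 256, 0, 2, 0,
     0, 512, 0, 0, 0, 1024, 2048, 4096, 8192, 0, 16384, 32768, 65536, 4096, 131072, 262144, 524288, 65536, 0,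
     1048576] (cNum i) j.val

/-- The right factor of the long element. -/
def longR : Matrix (Fin 21) chevF4.Idx (ZMod 2) := Matrix.of fun i j => bitEntry
    [33280, 512, 16, 128, 256, 80, 4224, 8192, 1280, 262144, 4202496, 33587200, 134217728, 164363,
     2147745792, 4294967296, 17179869184, 33554956, 671088640, 2203318222848, 85899345920] i.val (cNum j)

/-- Rows of an invertible minor of the short element. -/
def sRows (i : Fin 24) : chevF4.Idx := cAt (
    [0, 1, 9, 10, 13, 15, 17, 18, 29, 30, 31, 32, 33, 34, 35, 36, 39, 41, 42, 43, 44, 48, 50, 51].getD i.val 0)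

/-- Its columns. -/
def sCols (i : Fin 24) : chevF4.Idx := cAt (
    [1, 2, 4, 5, 6, 7, 10, 11, 12, 14, 16, 17, 19, 20, 21, 23, 24, 26, 28, 30, 33, 37, 40, 46].getD i.val 0)

/-- Its inverse. -/
def sInv : Matrix (Fin 24) (Fin 24) (ZMod 2) := Matrix.of fun i j => bitEntry
    [131073, 32770, 4, 8, 16, 32, 8200, 64, 8320, 1, 1024, 2112, 2, 256, 512, 4096, 65536, 16384, 262144,
     4194816, 1052672, 4718592, 2097152, 8388608] i.val j.val

/-- The long representative over two elements, minus one. -/
def longM : Matrix chevF4.Idx chevF4.Idx (ZMod 2) := chevF4.x (ZMod 2) 36 1 * chevF4.x (ZMod 2) 42 1 - 1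

/-- The short representative over two elements, minus one. -/
def shortM : Matrix chevF4.Idx chevF4.Idx (ZMod 2) := chevF4.x (ZMod 2) 37 1 * chevF4.x (ZMod 2) 32 1 - 1

theorem long_factor : longM = longA * longR := by decide +kernel

theorem short_minor : shortM.submatrix sRows sCols * sInv = 1 := by decide +kernel

variable {K : Type*} [Field K] [CharP K 2]

theorem Pw2_val (e : ℕ) (he : e ≠ 0) :
    ((Pw e 2 (0 : K) 1 : GL chevF4.Idx K) : Matrix chevF4.Idx chevF4.Idx K) - 1 =
      longM.map (ZMod.castHom (dvd_refl 2) K) := by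
  have z : ∀ r ∈ [34, 26], xGL chevF4 K r 0 = 1 := fun r hr => x_zero' (by revert r; decide +kernel)
  rw [longM, Matrix.map_sub _ (map_sub _), Matrix.map_one _ (map_zero _) (map_one _), Matrix.map_mul, x_map,
    x_map, map_one]
  simp [Pw, blocks, zero_pow he, z 34, z 26, val_xGL (rulesF4 K)]

theorem Pw7_val (e : ℕ) :
    ((Pw e 7 (1 : K) 0 : GL chevF4.Idx K) : Matrix chevF4.Idx chevF4.Idx K) - 1 =
      shortM.map (ZMod.castHom (dvd_refl 2) K) := by
  rw [shortM, Matrix.map_sub _ (map_sub _), Matrix.map_one _ (map_zero _) (map_one _), Matrix.map_mul, x_map,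
    x_map, map_one]
  simp [Pw, blocks, val_xGL (rulesF4 K)]

/-- The two representatives are not conjugate. -/
theorem not_conj (e : ℕ) (he : e ≠ 0) (h : GL chevF4.Idx K) : h * Pw e 2 0 1 * h⁻¹ ≠ Pw e 7 1 0 := by
  intro he'
  set f := ZMod.castHom (dvd_refl 2) K
  set H : Matrix chevF4.Idx chevF4.Idx K := (h : Matrix chevF4.Idx chevF4.Idx K)
  set H' : Matrix chevF4.Idx chevF4.Idx K := ((h⁻¹ : GL chevF4.Idx K) : Matrix chevF4.Idx chevF4.Idx K)
  have hH : H * H' = 1 := by simp [H, H']
  have e1 : shortM.map f = H * longA.map f * (longR.map f * H') := by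
    rw [← Pw7_val e, ← he', show H * longA.map f * (longR.map f * H') = H * (longA * longR).map f * H' by
      rw [Matrix.map_mul]; simp only [Matrix.mul_assoc], ← long_factor, ← Pw2_val e he, mul_sub, sub_mul,
      mul_one, hH]
    simp [H, H']
  have e2 : ((H * longA.map f).submatrix sRows id) *
      ((longR.map f * H').submatrix id sCols * sInv.map f) = 1 := by
    rw [← Matrix.mul_assoc, ← Matrix.submatrix_mul _ _ sRows id sCols Function.bijective_id, ← e1,
      Matrix.submatrix_map, ← Matrix.map_mul, short_minor, Matrix.map_one _ (map_zero _) (map_one _)]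
  have h1 := Matrix.rank_mul_le_left ((H * longA.map f).submatrix sRows id)
    ((longR.map f * H').submatrix id sCols * sInv.map f)
  rw [e2, Matrix.rank_one, Fintype.card_fin] at h1
  have h2 := Matrix.rank_le_card_width ((H * longA.map f).submatrix sRows id)
  rw [Fintype.card_fin] at h2
  omega

end Cfsg.Agent.TwInvolF4
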