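import Cfsg.Agent.TwInvolF4.Classify
import Cfsg.Agent.TwInvolF4.Rank
import Cfsg.Agent.ChevTwOrd.F4
import Mathlib.GroupTheory.Sylow

/-!
# ²F₄(q): exactly two classes of involutions (owner: helper31)
-/

set_option autoImplicit false

namespace Cfsg.Agent.TwInvolF4

open Cfsg.Lie Cfsg.Agent.ChevGrp Cfsg.Agent.ChevTw

variable {K : Type*} [Field K]

/-- An element with parameters 3, 9. -/
def par39 (a b : K) : Par K := fun j => if j = 3 then a else if j = 9 then b else 0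

/-- An element with parameters 2, 5. -/
def par25 (b g : K) : Par K := fun j => if j = 2 then b else if j = 5 then g else 0

theorem live39 (a b : K) : Live [3, 9] (par39 a b) := by
  intro j hj
  fin_cases j <;> first | exact absurd (by decide) hj | rfl

theorem live25 (b g : K) : Live [2, 5] (par25 b g) := by
  intro j hj
  fin_cases j <;> first | exact absurd (by decide) hj | rfl

theorem Live.mono {l l' : List ℕ} {f : Par K} (hf : Live l f) (h : ∀ j ∈ l, j ∈ l') : Live l' f :=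
  fun j hj => hf j fun h' => hj (h _ h')

variable [CharP K 2] [Fintype K] {m : ℕ} (hK : Fintype.card K = 2 ^ (2 * m + 1))

include hK

/-- All representatives of the first type are conjugate. -/
theorem Pw7_rc {b t : K} (hb : b ≠ 0) (ht : t ≠ 0) : RC (2 ^ m) (Pw (2 ^ m) 7 b 0) (Pw (2 ^ m) 7 t 0) := by
  have he : (2 : ℕ) ^ m ≠ 0 := by positivity
  obtain ⟨κ, hκ, hstep⟩ := refl_step hK ⟨0, by decide⟩ (l := [3, 9]) (ks := [1, 3, 4, 9, 15, 19, 21, 22])
    (ps := [[], [], [], [], [], pvar 7, [], []]) (by decide +kernel)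
  set f := par39 (t / κ 7) b
  have r0 := toPw7 hK ((live39 (t / κ 7) b).mono (by decide)) (show f 9 ≠ 0 from hb)
  obtain ⟨f1, r1, s1⟩ := hstep f (live39 _ _)
  simp [sel, vals, pev_scaled, pev_nil] at s1
  obtain ⟨a0, a1, a2, a4, a7, a9, a10, a11⟩ := s1
  rw [a1, zero_pow he, zero_mul, zero_add] at a2
  rw [a10, zero_pow he, zero_mul, zero_add] at a11
  have l1 : Live [3, 5, 6, 8, 9] f1 :=
    (((((((live_all f1).drop 0 a0).drop 1 a1).drop 2 a2).drop 4 a4).drop 7 a7).drop 10 a10).drop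
      11 a11
  have e9 : f1 9 = t := by rw [a9, show f 3 = t / κ 7 from rfl, mul_div_cancel₀ _ (hκ 7 (by norm_num))]
  have r2 := toPw7 hK l1 (e9 ▸ ht)
  rw [e9] at r2
  exact (r0.symm.trans r1).trans r2

/-- An element with parameters 2, 5 is conjugate to one with parameter 2 only. -/
theorem rc25 {b g : K} (hb : b ≠ 0) :
    RC (2 ^ m) (Uel (2 ^ m) (par25 b g)) (Pw (2 ^ m) 2 0 b) := by
  have he : (2 : ℕ) ^ m ≠ 0 := by positivity
  obtain ⟨f3, r3, s3⟩ := conj_step hK (l := [2, 5]) (g := [12]) (i := 7)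
    (ks := [1, 3, 4, 7, 9, 10, 13, 15, 16, 19, 21, 22])
    (ps := [[], [], X 2, [], [], padd (X 5) (pmul (X 2) (Xe 12)), [], [], [], [], [], []])
    (by decide +kernel) (by decide) (live25 b g) (by decide) ((g / b) ^ (2 * 2 ^ m)) 0
    (fun h => absurd List.mem_cons_self h) (fun _ => rfl)
  simp (disch := norm_num) only [sel, List.map_cons, List.map_nil, pev_X, pev_Xe, pev_padd, pev_pmul, pev_nil] at s3
  simp [vals, vv, par25] at s3
  obtain ⟨c0, c1, c2, c3, c4, c5, c6, c7, c8, c9, c10, c11⟩ := s3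
  rw [c1, zero_pow he, zero_mul, zero_add] at c2
  rw [c4, zero_pow he, zero_mul, zero_add, root_e hK, mul_div_cancel₀ _ hb, CharTwo.add_self_eq_zero] at c5
  rw [c7, zero_pow he, zero_mul, zero_add] at c8
  rw [c10, zero_pow he, zero_mul, zero_add] at c11
  have l3 : Live [2] f3 :=
    (((((((((((live_all f3).drop 0 c0).drop 1 c1).drop 3 c3).drop 4 c4).drop 5 c5).drop 6 c6).drop
      7 c7).drop 8 c8).drop 9 c9).drop 10 c10).drop 11 c11
  rw [Uel_Pw2 hK l3, c2] at r3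
  exact r3

/-- All representatives of the second type are conjugate, and one of them lies in the sixth root group. -/
theorem Pw2_rc : (∀ b t : K, b ≠ 0 → t ≠ 0 → RC (2 ^ m) (Pw (2 ^ m) 2 0 b) (Pw (2 ^ m) 2 0 t)) ∧
    ∃ c : K, c ≠ 0 ∧ RC (2 ^ m) (Pw (2 ^ m) 6 0 1) (Pw (2 ^ m) 2 0 c) := by
  have he : (2 : ℕ) ^ m ≠ 0 := by positivity
  obtain ⟨α, hα, step7⟩ := refl_step hK ⟨1, by decide⟩ (l := [2, 5])
    (ks := [1, 3, 4, 7, 9, 10, 13, 15, 16, 19, 21, 22])
    (ps := [[], [], [], [], [], pvar 10, [], [], pvar 4, [], [], []]) (by decide +kernel)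
  obtain ⟨β, hβ, step8⟩ := refl_step hK ⟨0, by decide⟩ (l := [5, 8])
    (ks := [1, 3, 4, 7, 9, 10, 13, 15, 16, 19, 21, 22])
    (ps := [[], [], [], [], [], pvar 16, [], [], pvar 10, [], [], []]) (by decide +kernel)
  obtain ⟨γ, hγ, step9⟩ := refl_step hK ⟨1, by decide⟩ (l := [5, 8])
    (ks := [1, 3, 4, 7, 9, 10, 13, 15, 16, 19, 21, 22])
    (ps := [[], [], pvar 16, [], [], pvar 10, [], [], [], [], [], []]) (by decide +kernel)
  have last : ∀ f : Par K, Live [5, 8] f → ∃ f', RC (2 ^ m) (Uel (2 ^ m) f) (Uel (2 ^ m) f') ∧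
      Live [2, 5] f' ∧ f' 2 = γ 16 * f 8 ∧ f' 5 = γ 10 * f 5 := by
    intro f hf
    obtain ⟨f', r, s⟩ := step9 f hf
    simp [sel, vals, pev_scaled, pev_nil, hf 4 (by decide), hf 7 (by decide), zero_pow he] at s
    obtain ⟨c0, c1, c2, c3, c4, c5, c6, c7, c8, c9, c10, c11⟩ := s
    rw [c1, zero_pow he, zero_mul, zero_add] at c2
    rw [c4, zero_pow he, zero_mul, zero_add] at c5
    rw [c7, zero_pow he, zero_mul, zero_add] at c8
    rw [c10, zero_pow he, zero_mul, zero_add] at c11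
    exact ⟨f', r, ((((((((((live_all f').drop 0 c0).drop 1 c1).drop 3 c3).drop 4 c4).drop 6 c6).drop 7 c7).drop
      8 c8).drop 9 c9).drop 10 c10).drop 11 c11, c2, c5⟩
  have norm : ∀ f : Par K, Live [2, 5] f → f 2 ≠ 0 → RC (2 ^ m) (Uel (2 ^ m) f) (Pw (2 ^ m) 2 0 (f 2)) := by
    intro f hf h2
    have : f = par25 (f 2) (f 5) := by
      funext j
      fin_cases j <;> first | rfl | exact hf _ (by decide)
    have h := rc25 hK (b := f 2) (g := f 5) h2
    rwa [← this] at h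
  refine ⟨fun b t hb ht => ?_, ?_⟩
  · have hc : γ 16 * β 10 * α 10 ≠ 0 :=
      mul_ne_zero (mul_ne_zero (hγ 16 (by norm_num)) (hβ 10 (by norm_num))) (hα 10 (by norm_num))
    set f := par25 b (t / (γ 16 * β 10 * α 10))
    have r0 := rc25 hK (b := b) (g := t / (γ 16 * β 10 * α 10)) hb
    obtain ⟨f1, r1, s1⟩ := step7 f (live25 _ _)
    simp [sel, vals, pev_scaled, pev_nil, f, par25, zero_pow he] at s1
    obtain ⟨c0, c1, c2, c3, c4, c5, c6, c7, c8, c9, c10, c11⟩ := s1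
    rw [c1, zero_pow he, zero_mul, zero_add] at c2
    rw [c4, zero_pow he, zero_mul, zero_add] at c5
    rw [c7, zero_pow he, zero_mul, zero_add] at c8
    rw [c10, zero_pow he, zero_mul, zero_add] at c11
    have l1 : Live [5, 8] f1 :=
      ((((((((((live_all f1).drop 0 c0).drop 1 c1).drop 2 c2).drop 3 c3).drop 4 c4).drop 6 c6).drop
      7 c7).drop 9 c9).drop 10 c10).drop 11 c11
    obtain ⟨f2, r2, s2⟩ := step8 f1 l1
    simp [sel, vals, pev_scaled, pev_nil, l1 4 (by decide), l1 7 (by decide), zero_pow he] at s2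
    obtain ⟨d0, d1, d2, d3, d4, d5, d6, d7, d8, d9, d10, d11⟩ := s2
    rw [d1, zero_pow he, zero_mul, zero_add] at d2
    rw [d7, zero_pow he, zero_mul, zero_add] at d8
    rw [d10, zero_pow he, zero_mul, zero_add] at d11
    have l2 : Live [5, 8] f2 :=
      ((((((((((live_all f2).drop 0 d0).drop 1 d1).drop 2 d2).drop 3 d3).drop 4 d4).drop 6 d6).drop
      7 d7).drop 9 d9).drop 10 d10).drop 11 d11
    obtain ⟨f3, r3, l3, e2, -⟩ := last f2 l2
    have et : f3 2 = t := by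
      rw [e2, d8, c5, ← mul_assoc, ← mul_assoc, mul_div_cancel₀ _ hc]
    have r4 := norm f3 l3 (et ▸ ht)
    rw [et] at r4
    exact ((r0.symm.trans r1).trans r2).trans (r3.trans r4)
  · set f : Par K := fun j => if j = 8 then 1 else 0
    have lf : Live [5, 8] f := by
      intro j hj
      fin_cases j <;> first | exact absurd (by decide) hj | rfl
    have ef : Uel (2 ^ m) f = Pw (2 ^ m) 6 0 1 := by
      simp [Uel, f, Pw_zero _ he (i := 1), Pw_zero _ he (i := 2), Pw_zero _ he (i := 3), Pw_zero _ he (i := 4),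
        Pw_zero _ he (i := 5), Pw_zero _ he (i := 7), Pw_zero _ he (i := 8)]
    obtain ⟨f', r, l', e2, -⟩ := last f lf
    have e : f' 2 = γ 16 := by rw [e2, show f 8 = 1 from rfl, mul_one]
    have h2 : f' 2 ≠ 0 := e ▸ hγ 16 (by norm_num)
    exact ⟨f' 2, h2, ef ▸ r.trans (norm f' l' h2)⟩

theorem odd_cofactor : ¬ 2 ∣ (2 ^ (2 * m + 1) - 1) * ((2 ^ (2 * m + 1)) ^ 3 + 1) *
    ((2 ^ (2 * m + 1)) ^ 4 - 1) * ((2 ^ (2 * m + 1)) ^ 6 + 1) := by
  have hd : ∀ k, k ≠ 0 → 2 ∣ (2 ^ (2 * m + 1)) ^ k := fun k hk =>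
    (dvd_pow_self 2 (show 2 * m + 1 ≠ 0 by omega)).trans (dvd_pow_self _ hk)
  have hp : ∀ k, 1 ≤ (2 ^ (2 * m + 1)) ^ k := fun k => Nat.one_le_pow _ _ (by positivity)
  have a := hd 1 one_ne_zero
  have b := hd 3 (by norm_num)
  have c := hd 4 (by norm_num)
  have d := hd 6 (by norm_num)
  have a' := hp 1
  have c' := hp 4
  rw [pow_one] at a a'
  intro h
  rcases Nat.prime_two.dvd_mul.1 h with h | h
  · rcases Nat.prime_two.dvd_mul.1 h with h | h
    · rcases Nat.prime_two.dvd_mul.1 h with h | h <;> omega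
    · omega
  · omega

/-- Every involution is conjugate to one of the two representatives. -/
theorem involution_cases {g : GL chevF4.Idx K} (hg : g ∈ twistedF4 K (2 ^ m)) (hsq : g * g = 1) (hne : g ≠ 1) :
    RC (2 ^ m) g (Pw (2 ^ m) 7 1 0) ∨ RC (2 ^ m) g (Pw (2 ^ m) 2 0 1) := by
  classical
  set G := twistedF4 K (2 ^ m)
  set U := ((glSys (rulesF4 K)).Ubar ⊓ G).subgroupOf G
  have hUc : Nat.card ↥U = (2 ^ (2 * m + 1)) ^ 12 := by
    have h := thm_S1090 hK
    rw [posUnipotent_eq (rulesF4 K)] at h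
    rw [Nat.card_congr (Subgroup.subgroupOfEquivOfLe inf_le_right).toEquiv, h]
  have hidx : ¬ 2 ∣ U.index := by
    have h := U.card_mul_index
    rw [Cfsg.Agent.ChevTwOrd.order_F4 hK, hUc] at h
    rw [show U.index = (2 ^ (2 * m + 1) - 1) * ((2 ^ (2 * m + 1)) ^ 3 + 1) * ((2 ^ (2 * m + 1)) ^ 4 - 1) *
      ((2 ^ (2 * m + 1)) ^ 6 + 1) from Nat.eq_of_mul_eq_mul_left (by positivity) (h.trans (by ring))]
    exact odd_cofactor hK
  haveI : Fact (Nat.Prime 2) := ⟨Nat.prime_two⟩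
  have hUp : IsPGroup 2 ↥U := IsPGroup.of_card (n := (2 * m + 1) * 12) (by rw [hUc, ← pow_mul])
  set x : ↥G := ⟨g, hg⟩
  have hx : orderOf x = 2 := orderOf_eq_prime (by rw [pow_two]; exact Subtype.ext hsq)
    fun e => hne (congrArg Subtype.val e :)
  have hgp : IsPGroup 2 ↥(Subgroup.zpowers x) :=
    IsPGroup.of_card (n := 1) (by rw [Nat.card_zpowers, hx, pow_one])
  obtain ⟨S, hS⟩ := hgp.exists_le_sylow
  obtain ⟨h, hh⟩ := MulAction.exists_smul_eq ↥G S (hUp.toSylow hidx)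
  have hU : h * x * h⁻¹ ∈ U := by
    have : h * x * h⁻¹ ∈ ((h • S : Sylow 2 ↥G) : Subgroup ↥G) :=
      ⟨x, hS (Subgroup.mem_zpowers x), by simp⟩
    rw [hh] at this
    exact this
  obtain ⟨f, hf⟩ := exists_Uel hK (Subgroup.mem_subgroupOf.1 hU)
  have r : RC (2 ^ m) g (Uel (2 ^ m) f) := ⟨h, h.2, hf⟩
  have hne' : Uel (2 ^ m) f ≠ 1 := by
    intro e
    obtain ⟨a, -, ha⟩ := r
    rw [e, mul_inv_eq_one, mul_eq_left] at ha
    exact hne ha
  rcases classify hK f (r.sq hsq) hne' with ⟨t, ht, rt⟩ | ⟨u, hu, ru⟩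
  · exact Or.inl ((r.trans rt).trans (Pw7_rc hK ht one_ne_zero))
  · exact Or.inr ((r.trans ru).trans ((Pw2_rc hK).1 u 1 hu one_ne_zero))

omit [Fintype K] hK in
theorem sq_gen (e : ℕ) (he : e ≠ 0) {f : Par K} (l : List ℕ) (hf : Live l f) (h99 : 99 ∉ l)
    (h : collect (gsym l ++ gsym l) = collect []) : Uel e f * Uel e f = 1 := by
  have h' := wev_eq h (asg e (vv f 0 0))
  rwa [wev_append, wev_gsym he hf h99] at h'

/-- The representatives are involutions of the group. -/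
theorem reps_order : ∀ i t u, (i = 7 ∧ t = (1 : K) ∧ u = 0) ∨ ((i = 2 ∨ i = 6) ∧ t = (0 : K) ∧ u = 1) →
    ∃ hm : Pw (2 ^ m) i t u ∈ twistedF4 K (2 ^ m),
      orderOf (⟨_, hm⟩ : ↥(twistedF4 K (2 ^ m))) = 2 := by
  have he : (2 : ℕ) ^ m ≠ 0 := by positivity
  haveI : Fact (Nat.Prime 2) := ⟨Nat.prime_two⟩
  have main : ∀ (f : Par K) (j : Fin 12), f j = 1 → Uel (2 ^ m) f * Uel (2 ^ m) f = 1 →
      ∃ hm : Uel (2 ^ m) f ∈ twistedF4 K (2 ^ m), orderOf (⟨_, hm⟩ : ↥(twistedF4 K (2 ^ m))) = 2 := by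
    intro f j hj hsq
    refine ⟨(Subgroup.mem_inf.1 (Uel_mem hK f)).2, orderOf_eq_prime (by rw [pow_two]; exact Subtype.ext hsq)
      fun e => ?_⟩
    have h0 : Uel (2 ^ m) (fun _ : Fin 12 => (0 : K)) = 1 := by
      simp [Uel, Pw_zero _ he (i := 1), Pw_zero _ he (i := 2), Pw_zero _ he (i := 3), Pw_zero _ he (i := 4),
        Pw_zero _ he (i := 5), Pw_zero _ he (i := 6), Pw_zero _ he (i := 7), Pw_zero _ he (i := 8)]
    have := congrFun (Uel_injective hK ((congrArg Subtype.val e :).trans h0.symm)) j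
    rw [hj] at this
    exact one_ne_zero this
  have lv : ∀ n : Fin 12, Live [(n : ℕ)] (fun j : Fin 12 => if j = n then (1 : K) else 0) := fun n j hj =>
    if_neg fun e => hj (by simp [e])
  rintro i t u (⟨rfl, rfl, rfl⟩ | ⟨rfl | rfl, rfl, rfl⟩)
  · have h := main _ 9 (if_pos rfl) (sq_gen _ he [9] (lv 9) (by decide) (by decide +kernel))
    rw [Uel_Pw7 hK (lv 9), if_pos rfl] at h
    exact h
  · have h := main _ 2 (if_pos rfl) (sq_gen _ he [2] (lv 2) (by decide) (by decide +kernel))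
    rw [Uel_Pw2 hK (lv 2), if_pos rfl] at h
    exact h
  · have h := main _ 8 (if_pos rfl) (sq_gen _ he [8] (lv 8) (by decide) (by decide +kernel))
    rw [show Uel (2 ^ m) (fun j : Fin 12 => if j = 8 then (1 : K) else 0) = Pw (2 ^ m) 6 0 1 by
      simp [Uel, Pw_zero _ he (i := 1), Pw_zero _ he (i := 2), Pw_zero _ he (i := 3), Pw_zero _ he (i := 4),
        Pw_zero _ he (i := 5), Pw_zero _ he (i := 7), Pw_zero _ he (i := 8)]] at h
    exact h

/-- The number of classes. -/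
theorem count :
    (ConjClasses.mk '' {g : ↥(twistedF4 K (2 ^ m)) | orderOf g = 2}).ncard = 2 := by
  obtain ⟨h7, o7⟩ := reps_order hK 7 1 0 (Or.inl ⟨rfl, rfl, rfl⟩)
  obtain ⟨h2, o2⟩ := reps_order hK 2 0 1 (Or.inr ⟨Or.inl rfl, rfl, rfl⟩)
  have he : (2 : ℕ) ^ m ≠ 0 := by positivity
  have key : ConjClasses.mk '' {g : ↥(twistedF4 K (2 ^ m)) | orderOf g = 2} =
      {ConjClasses.mk ⟨_, h7⟩, ConjClasses.mk ⟨_, h2⟩} := by
    ext c
    constructor
    · rintro ⟨g, hg, rfl⟩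
      change orderOf g = 2 at hg
      have hsq : g * g = 1 := by
        have h' := pow_orderOf_eq_one g
        rwa [hg, pow_two] at h'
      have hne : (g : GL chevF4.Idx K) ≠ 1 := fun e => by
        rw [show g = 1 from Subtype.ext e, orderOf_one] at hg
        norm_num at hg
      rcases involution_cases hK g.2 (congrArg Subtype.val hsq :) hne with ⟨a, ha, e⟩ | ⟨a, ha, e⟩
      · exact Or.inl (ConjClasses.mk_eq_mk_iff_isConj.2 (isConj_iff.2 ⟨⟨a, ha⟩, Subtype.ext e⟩))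
      · exact Or.inr (ConjClasses.mk_eq_mk_iff_isConj.2 (isConj_iff.2 ⟨⟨a, ha⟩, Subtype.ext e⟩))
    · rintro (rfl | rfl)
      · exact ⟨_, o7, rfl⟩
      · exact ⟨_, o2, rfl⟩
  rw [key]
  refine Set.ncard_pair fun e => ?_
  obtain ⟨a, ha⟩ := isConj_iff.1 (ConjClasses.mk_eq_mk_iff_isConj.1 e.symm)
  exact not_conj _ he (a : GL chevF4.Idx K) (congrArg Subtype.val ha :)

end Cfsg.Agent.TwInvolF4
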