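import Cfsg.Agent.TwInvolF4.Sym

/-!
# Squares, conjugates and reflections of unipotent elements of ²F₄(q) (owner: helper31)
-/

set_option autoImplicit false

namespace Cfsg.Agent.TwInvolF4

open Cfsg.Lie Cfsg.Agent.ChevGrp Cfsg.Agent.ChevTw

variable {K : Type*} [Field K]

/-- Conjugacy by an element of the twisted group. -/
def RC (e : ℕ) (x y : GL chevF4.Idx K) : Prop := ∃ h ∈ twistedF4 K e, h * x * h⁻¹ = y

theorem RC.refl (e : ℕ) (x : GL chevF4.Idx K) : RC e x x := ⟨1, one_mem _, by simp⟩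

theorem RC.symm {e : ℕ} {x y : GL chevF4.Idx K} (h : RC e x y) : RC e y x := by
  obtain ⟨a, ha, rfl⟩ := h
  exact ⟨a⁻¹, inv_mem ha, by group⟩

theorem RC.trans {e : ℕ} {x y z : GL chevF4.Idx K} (h : RC e x y) (h' : RC e y z) : RC e x z := by
  obtain ⟨a, ha, rfl⟩ := h
  obtain ⟨b, hb, rfl⟩ := h'
  exact ⟨b * a, mul_mem hb ha, by group⟩

theorem RC.sq {e : ℕ} {x y : GL chevF4.Idx K} (h : RC e x y) (hx : x * x = 1) : y * y = 1 := by
  obtain ⟨a, -, rfl⟩ := h
  calc a * x * a⁻¹ * (a * x * a⁻¹) = a * (x * x) * a⁻¹ := by group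
    _ = 1 := by rw [hx]; group

/-- The live parameters. -/
def Live (l : List ℕ) (f : Par K) : Prop := ∀ j : Fin 12, (j : ℕ) ∉ l → f j = 0

/-- The values of the variables. -/
def vv (f : Par K) (c d : K) : List K :=
  [f 0, f 1, f 2, f 3, f 4, f 5, f 6, f 7, f 8, f 9, f 10, f 11, c, d]

/-- The symbol of a parameter. -/
def X (j : ℕ) : Pol := pvar (2 * j)

/-- The symbol of the power of a parameter. -/
def Xe (j : ℕ) : Pol := pvar (2 * j + 1)

/-- Selected coordinates of a general element. -/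
def sel (e : ℕ) (f : Par K) (ks : List ℕ) : List K := ks.map fun k => (vals e f).getD k 0

theorem mev_pvar : ∀ (ρ : List K) (i : ℕ), i < ρ.length → mev ρ (List.replicate i 0 ++ [1]) = ρ.getD i 0
  | [], _, h => by simp at h
  | x :: ρ, 0, _ => by simp [mev, mev_nil]
  | x :: ρ, i + 1, h => by
    have := mev_pvar ρ i (by simpa using h)
    simp [List.replicate_succ, mev, this]

theorem pev_pvar {ρ : List K} {i : ℕ} (h : i < ρ.length) : pev ρ (pvar i) = ρ.getD i 0 := by
  simp [pvar, pev, mev_pvar ρ i h]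

theorem asg_length (e : ℕ) (v : List K) : (asg e v).length = 2 * v.length := by
  induction v with
  | nil => simp [asg]
  | cons x v ih => simp only [asg] at ih; simp [asg, ih]; omega

theorem asg_getD (e : ℕ) : ∀ (v : List K) (j : ℕ), j < v.length →
    (asg e v).getD (2 * j) 0 = v.getD j 0 ∧ (asg e v).getD (2 * j + 1) 0 = v.getD j 0 ^ e
  | [], _, h => by simp at h
  | x :: v, 0, _ => by simp [asg]
  | x :: v, j + 1, h => by
    have := asg_getD e v j (by simpa using h)
    simpa [asg, Nat.mul_succ] using this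

theorem pev_X {e : ℕ} {f : Par K} {c d : K} {j : ℕ} (hj : j < 14) :
    pev (asg e (vv f c d)) (X j) = (vv f c d).getD j 0 := by
  rw [X, pev_pvar (by simp [asg_length, vv]; omega), (asg_getD e _ j (by simp [vv]; omega)).1]

theorem pev_Xe {e : ℕ} {f : Par K} {c d : K} {j : ℕ} (hj : j < 14) :
    pev (asg e (vv f c d)) (Xe j) = (vv f c d).getD j 0 ^ e := by
  rw [Xe, pev_pvar (by simp [asg_length, vv]; omega), (asg_getD e _ j (by simp [vv]; omega)).2]

theorem pev_sv {e : ℕ} (he : e ≠ 0) {f : Par K} {c d : K} {g : List ℕ} {j : ℕ} (hj : j < 14)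
    (h : j ∉ g → (vv f c d).getD j 0 = 0) :
    pev (asg e (vv f c d)) (sv g j) = (vv f c d).getD j 0 ∧
      pev (asg e (vv f c d)) (sV g j) = (vv f c d).getD j 0 ^ e := by
  by_cases hg : j ∈ g
  · simp only [sv, sV, if_pos hg]
    exact ⟨pev_X hj, pev_Xe hj⟩
  · simp only [sv, sV, if_neg hg, pev_nil, h hg, zero_pow he, and_self]

variable [CharP K 2]

theorem wev_sP {e : ℕ} (he : e ≠ 0) {f : Par K} {c d : K} {g : List ℕ} (i : ℕ) {j k : ℕ} (hj : j < 14)
    (hk : k < 14 ∨ k ∉ g) (h : j ∉ g → (vv f c d).getD j 0 = 0) (h' : k ∉ g → (vv f c d).getD k 0 = 0) :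
    wev (asg e (vv f c d)) (sP g i j k) = Pw e i ((vv f c d).getD j 0) ((vv f c d).getD k 0) := by
  obtain ⟨a1, a2⟩ := pev_sv (c := c) (d := d) he hj h
  have hb : pev (asg e (vv f c d)) (sv g k) = (vv f c d).getD k 0 ∧
      pev (asg e (vv f c d)) (sV g k) = (vv f c d).getD k 0 ^ e := by
    rcases hk with hk | hk
    · exact pev_sv he hk h'
    · simp only [sv, sV, if_neg hk, pev_nil, h' hk, zero_pow he, and_self]
  rw [sP, wev_blockSym _ (by rw [a2, a1]) (by rw [hb.2, hb.1]), a1, hb.1]

theorem wev_gsym {e : ℕ} (he : e ≠ 0) {f : Par K} {l : List ℕ} (hf : Live l f) (h99 : 99 ∉ l) (c d : K) :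
    wev (asg e (vv f c d)) (gsym l) = Uel e f := by
  have h : ∀ j : Fin 12, (j : ℕ) ∉ l → (vv f c d).getD (j : ℕ) 0 = 0 := fun j hj => by
    have := hf j hj
    fin_cases j <;> simpa [vv] using this
  have z : (vv f c d).getD 99 0 = 0 := rfl
  simp only [gsym, wev_append,
    wev_sP he 1 (show 0 < 14 by norm_num) (Or.inr h99) (h 0) (fun _ => z),
    wev_sP he 2 (show 1 < 14 by norm_num) (Or.inl (show 2 < 14 by norm_num)) (h 1) (h 2),
    wev_sP he 3 (show 3 < 14 by norm_num) (Or.inr h99) (h 3) (fun _ => z),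
    wev_sP he 4 (show 4 < 14 by norm_num) (Or.inl (show 5 < 14 by norm_num)) (h 4) (h 5),
    wev_sP he 5 (show 6 < 14 by norm_num) (Or.inr h99) (h 6) (fun _ => z),
    wev_sP he 6 (show 7 < 14 by norm_num) (Or.inl (show 8 < 14 by norm_num)) (h 7) (h 8),
    wev_sP he 7 (show 9 < 14 by norm_num) (Or.inr h99) (h 9) (fun _ => z),
    wev_sP he 8 (show 10 < 14 by norm_num) (Or.inl (show 11 < 14 by norm_num)) (h 10) (h 11), z]
  simp [Uel, vv]

theorem wev_reverse (ρ : List K) : ∀ w : SWord, (∀ q ∈ w, q.1 < chevF4.nroots) →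
    wev ρ w.reverse = (wev ρ w)⁻¹
  | [], _ => by simp [wev]
  | q :: w, h => by
    have hx : xGL chevF4 K q.1 (pev ρ q.2) * xGL chevF4 K q.1 (pev ρ q.2) = 1 := by
      rw [x_add' (h q List.mem_cons_self), CharTwo.add_self_eq_zero, x_zero' (h q List.mem_cons_self)]
    rw [List.reverse_cons, wev_append, wev_reverse ρ w fun x hx => h x (List.mem_cons_of_mem _ hx), wev_cons,
      wev_cons, wev_nil, mul_one, mul_inv_rev]
    congr 1
    exact eq_inv_of_mul_eq_one_left hx

theorem sP_lt (g : List ℕ) {i : ℕ} (hi : i ∈ [1, 2, 3, 4, 5, 6, 7, 8]) (j k : ℕ) :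
    ∀ q ∈ sP g i j k, q.1 < chevF4.nroots := by
  intro q hq
  rw [sP, blockSym] at hq
  have hb : ∀ i ∈ [1, 2, 3, 4, 5, 6, 7, 8], ∀ r ∈ blocks.getD (i - 1) [], r < chevF4.nroots := by decide +kernel
  split at hq <;> exact hb i hi q.1 (List.of_mem_zip hq).1

variable [Fintype K] {m : ℕ} (hK : Fintype.card K = 2 ^ (2 * m + 1))

include hK

theorem exists_of_pick {w : SWord} {ks : List ℕ} {ps : List Pol} (h : pick ks w = some ps) (ρ : List K)
    (hy : wev ρ w ∈ twistedF4 K (2 ^ m)) :
    ∃ f' : Par K, wev ρ w = Uel (2 ^ m) f' ∧ sel (2 ^ m) f' ks = ps.map (pev ρ) := by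
  simp only [pick, Option.map_eq_some_iff] at h
  obtain ⟨cs, hcs, rfl⟩ := h
  obtain ⟨hlen, he⟩ := wev_coords hcs ρ
  have hU : ∀ (L : List ℕ) (v : List K), (∀ r ∈ L, r ∈ posSet chevF4) →
      (List.zipWith (xGL chevF4 K) L v).prod ∈ (glSys (rulesF4 K)).Ubar := by
    intro L
    induction L with
    | nil => intro v _; simp [one_mem]
    | cons r L ih =>
      intro v hL
      cases v with
      | nil => simp [one_mem]
      | cons x v =>
        simp only [List.zipWith_cons_cons, List.prod_cons]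
        exact mul_mem ((glSys (rulesF4 K)).x_mem_US (hL r List.mem_cons_self) x)
          (ih v fun s hs => hL s (List.mem_cons_of_mem _ hs))
  obtain ⟨f', hf'⟩ := exists_Uel hK (Subgroup.mem_inf.2
    ⟨he ▸ hU _ _ fun r hr => (enum_rorder.2 r).1 hr, hy⟩)
  refine ⟨f', hf', ?_⟩
  have hv : vals (2 ^ m) f' = cs.map (pev ρ) :=
    coords_eq (by simp [vals]) (by simp [hlen]) ((Uel_eq _ f').symm.trans (hf'.symm.trans he))
  rw [sel, hv, List.map_map]
  refine List.map_congr_left fun k _ => ?_
  rw [Function.comp_apply, ← pev_nil ρ]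
  exact List.getD_map (l := cs) [] (pev ρ)

theorem square_step {l ks : List ℕ} {ps : List Pol} (h : pick ks (gsym l ++ gsym l) = some ps)
    {f : Par K} (hf : Live l f) (h99 : 99 ∉ l) (hsq : Uel (2 ^ m) f * Uel (2 ^ m) f = 1) :
    ps.map (pev (asg (2 ^ m) (vv f 0 0))) = ks.map fun _ => (0 : K) := by
  have he : (2 : ℕ) ^ m ≠ 0 := by positivity
  have e : wev (asg (2 ^ m) (vv f 0 0)) (gsym l ++ gsym l) = 1 := by
    rw [wev_append, wev_gsym he hf h99, hsq]
  obtain ⟨f', hf', hsel⟩ := exists_of_pick hK h _ (e ▸ one_mem _)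
  have h0 : Uel (2 ^ m) (fun _ : Fin 12 => (0 : K)) = 1 := by
    simp [Uel, Pw_zero _ he (i := 1), Pw_zero _ he (i := 2), Pw_zero _ he (i := 3), Pw_zero _ he (i := 4),
      Pw_zero _ he (i := 5), Pw_zero _ he (i := 6), Pw_zero _ he (i := 7), Pw_zero _ he (i := 8)]
  rw [← hsel, sel, Uel_injective hK (hf'.symm.trans (e.trans h0.symm))]
  refine List.map_congr_left fun k _ => ?_
  by_cases hk : k < 24
  · interval_cases k <;> simp [vals, zero_pow he]
  · exact List.getD_eq_default _ _ (by simp [vals]; omega)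

theorem conj_step {l g ks : List ℕ} {i : ℕ} {ps : List Pol} (h : pick ks (conjSym l i g) = some ps)
    (hi : i ∈ [1, 2, 3, 4, 5, 6, 7, 8]) {f : Par K} (hf : Live l f) (h99 : 99 ∉ l) (c d : K)
    (hc : 12 ∉ g → c = 0) (hd : 13 ∉ g → d = 0) :
    ∃ f' : Par K, RC (2 ^ m) (Uel (2 ^ m) f) (Uel (2 ^ m) f') ∧
      sel (2 ^ m) f' ks = ps.map (pev (asg (2 ^ m) (vv f c d))) := by
  have he : (2 : ℕ) ^ m ≠ 0 := by positivity
  set ρ := asg (2 ^ m) (vv f c d)
  have eP : wev ρ (sP g i 12 13) = Pw (2 ^ m) i c d := by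
    rw [wev_sP he i (show 12 < 14 by norm_num) (Or.inl (show 13 < 14 by norm_num)) (fun h => by simpa [vv] using hc h)
      (fun h => by simpa [vv] using hd h)]
    simp [vv]
  have e : wev ρ (conjSym l i g) = Pw (2 ^ m) i c d * Uel (2 ^ m) f * (Pw (2 ^ m) i c d)⁻¹ := by
    rw [conjSym, wev_append, wev_append, wev_reverse _ _ (sP_lt g hi 12 13), eP, wev_gsym he hf h99]
  have hP := (Subgroup.mem_inf.1 (Pw_mem hK hi c d)).2
  obtain ⟨f', hf', hsel⟩ := exists_of_pick hK h ρ
    (e ▸ mul_mem (mul_mem hP (Subgroup.mem_inf.1 (Uel_mem hK f)).2) (inv_mem hP))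
  exact ⟨f', ⟨_, hP, e.symm.trans hf'⟩, hsel⟩

/-- The scaled coordinates. -/
def scaled (e : ℕ) (κ : ℕ → K) (f : Par K) : List K :=
  (List.range 24).map fun k => κ k * (vals e f).getD k 0

omit hK [CharP K 2] [Fintype K] in
theorem pev_scaled {e : ℕ} {κ : ℕ → K} {f : Par K} {k : ℕ} (hk : k < 24) :
    pev (scaled e κ f) (pvar k) = κ k * (vals e f).getD k 0 := by
  rw [pev_pvar (by simpa [scaled] using hk), scaled, List.getD_eq_getElem _ _ (by simpa using hk)]
  simp

omit hK [CharP K 2] [Fintype K] in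
theorem vals_dead {e : ℕ} (he : e ≠ 0) {l : List ℕ} {f : Par K} (hf : Live l f) {k : ℕ} (hk : k < 24)
    (h : k ∉ liveCoords l) : (vals e f).getD k 0 = 0 := by
  have hz : ∀ j : Fin 12, (j : ℕ) ∉ l → f j = 0 := hf
  simp only [liveCoords, List.mem_filter, List.mem_range, not_and, Bool.not_eq_true, List.any_eq_false,
    decide_eq_true_eq] at h
  have := h hk
  interval_cases k <;> simp at this <;>
    first
      | simp [vals, hz 0 (by simpa using this), zero_pow he]
      | simp [vals, hz 1 (by simpa using this), zero_pow he]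
      | simp [vals, hz 2 (by simpa using this), zero_pow he]
      | simp [vals, hz 3 (by simpa using this), zero_pow he]
      | simp [vals, hz 4 (by simpa using this), zero_pow he]
      | simp [vals, hz 5 (by simpa using this), zero_pow he]
      | simp [vals, hz 6 (by simpa using this), zero_pow he]
      | simp [vals, hz 7 (by simpa using this), zero_pow he]
      | simp [vals, hz 8 (by simpa using this), zero_pow he]
      | simp [vals, hz 9 (by simpa using this), zero_pow he]
      | simp [vals, hz 10 (by simpa using this), zero_pow he]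
      | simp [vals, hz 11 (by simpa using this), zero_pow he]
      | simp [vals, hz 1 (by simpa using this.1), hz 2 (by simpa using this.2), zero_pow he]
      | simp [vals, hz 4 (by simpa using this.1), hz 5 (by simpa using this.2), zero_pow he]
      | simp [vals, hz 7 (by simpa using this.1), hz 8 (by simpa using this.2), zero_pow he]
      | simp [vals, hz 10 (by simpa using this.1), hz 11 (by simpa using this.2), zero_pow he]

theorem refl_step (J : Fin twF4.nOrb) {l ks : List ℕ} {ps : List Pol}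
    (h : pick ks (reflSym J.val (liveCoords l)) = some ps) :
    ∃ κ : ℕ → K, (∀ k < 24, κ k ≠ 0) ∧ ∀ f : Par K, Live l f → ∃ f' : Par K,
      RC (2 ^ m) (Uel (2 ^ m) f) (Uel (2 ^ m) f') ∧ sel (2 ^ m) f' ks = ps.map (pev (scaled (2 ^ m) κ f)) := by
  have he : (2 : ℕ) ^ m ≠ 0 := by positivity
  obtain ⟨len, hR⟩ := (rulesF4 K).root
  obtain ⟨-, ⟨a, ha, hn⟩, hT⟩ := (grpF4 hK).nJ_spec (rulesF4 K) hR J
  set n := (grpF4 hK).nJ (rulesF4 K) hR J
  refine ⟨fun k => a (rorder.getD k 0), fun k hk e => ?_, fun f hf => ?_⟩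
  · have hr : rorder.getD k 0 < chevF4.nroots := by
      rw [List.getD_eq_getElem _ _ (by simpa [rorder] using hk)]
      exact rorder_lt _ (List.getElem_mem _)
    have h1 := ha _ hr
    simp only at e
    rw [e, mul_zero] at h1
    exact zero_ne_one h1
  have hact : movedRoots J.val = rorder.map fun r => act chevF4 ((orbF4 hK).wJ J) r := by
    have : movedRoots.twF4J J.val = (orbF4 hK).wJ J := by
      rw [movedRoots.twF4J, show (⟨J.val % 2, Nat.mod_lt _ (by decide)⟩ : Fin twF4.nOrb) = J from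
        Fin.ext (Nat.mod_eq_of_lt J.isLt)]
      rfl
    rw [movedRoots, this]
  have conj : ∀ (L : List ℕ) (v : List K), (∀ r ∈ L, r < chevF4.nroots) →
      n * (List.zipWith (xGL chevF4 K) L v).prod * n⁻¹ =
        (List.zipWith (xGL chevF4 K) (L.map fun r => act chevF4 ((orbF4 hK).wJ J) r)
          (List.zipWith (fun r x => a r * x) L v)).prod := by
    intro L
    induction L with
    | nil => intro v _; simp
    | cons r L ih =>
      intro v hL
      cases v with
      | nil => simp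
      | cons x v =>
        simp only [List.map_cons, List.zipWith_cons_cons, List.prod_cons]
        rw [← ih v fun s hs => hL s (List.mem_cons_of_mem _ hs),
          show xGL chevF4 K (act chevF4 ((orbF4 hK).wJ J) r) (a r * x) = n * xGL chevF4 K r x * n⁻¹ from
            (hn r (hL r List.mem_cons_self) x).symm]
        group
  have key : ∀ (R : List ℕ) (qs : List Pol) (ρ : List K),
      wev ρ (List.zip R qs) = (List.zipWith (xGL chevF4 K) R (qs.map (pev ρ))).prod := by
    intro R
    induction R with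
    | nil => intro qs ρ; simp [wev]
    | cons r R ih =>
      intro qs ρ
      cases qs with
      | nil => simp [wev]
      | cons p qs => rw [List.zip_cons_cons, wev_cons, ih]; simp
  set ρ := scaled (2 ^ m) (fun k => a (rorder.getD k 0)) f
  have hlen : (vals (2 ^ m) f).length = 24 := rfl
  have e : wev ρ (reflSym J.val (liveCoords l)) = n * Uel (2 ^ m) f * n⁻¹ := by
    rw [Uel_eq, conj _ _ rorder_lt, reflSym, key, hact]
    refine congrArg (fun v => (List.zipWith (xGL chevF4 K) _ v).prod) ?_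
    refine List.ext_getElem (by simp [hlen, rorder]) fun k h1 h2 => ?_
    have hk : k < 24 := by simpa using h1
    simp only [List.getElem_map, List.getElem_range, List.getElem_zipWith]
    by_cases hl : k ∈ liveCoords l
    · rw [if_pos hl, pev_scaled hk, List.getD_eq_getElem _ _ (by simpa [rorder] using hk),
        List.getD_eq_getElem _ _ (by simpa [hlen] using hk)]
    · rw [if_neg hl, pev_nil]
      have h0 := vals_dead he hf hk hl
      rw [List.getD_eq_getElem _ _ (by simpa [hlen] using hk)] at h0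
      rw [h0, mul_zero]
  obtain ⟨f', hf', hsel⟩ := exists_of_pick hK h ρ
    (e ▸ mul_mem (mul_mem hT (Subgroup.mem_inf.1 (Uel_mem hK f)).2) (inv_mem hT))
  exact ⟨f', ⟨n, hT, e.symm.trans hf'⟩, hsel⟩

end Cfsg.Agent.TwInvolF4
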