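import Cfsg.Agent.TwInvolF4.Core

/-!
# Symbolic elements, conjugates and reflected elements (owner: helper31)
-/

set_option autoImplicit false

namespace Cfsg.Agent.TwInvolF4

open Cfsg.Lie

/-- The symbolic parameter `j`, zero outside the live ones. -/
def sv (live : List ℕ) (j : ℕ) : Pol := if j ∈ live then pvar (2 * j) else []

/-- The symbolic power of a parameter. -/
def sV (live : List ℕ) (j : ℕ) : Pol := if j ∈ live then pvar (2 * j + 1) else []

/-- The root group element `i` with parameters `j`, `k`. -/
def sP (live : List ℕ) (i j k : ℕ) : SWord := blockSym i (sv live j) (sV live j) (sv live k) (sV live k)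

/-- The general element with the given live parameters. -/
def gsym (l : List ℕ) : SWord :=
  sP l 1 0 99 ++ sP l 2 1 2 ++ sP l 3 3 99 ++ sP l 4 4 5 ++ sP l 5 6 99 ++ sP l 6 7 8 ++ sP l 7 9 99 ++ sP l 8 10 11

/-- A general element conjugated by an element of the root group `i`. -/
def conjSym (l : List ℕ) (i : ℕ) (g : List ℕ) : SWord :=
  sP g i 12 13 ++ gsym l ++ (sP g i 12 13).reverse

/-- Selected coordinates of a word. -/
def pick (ks : List ℕ) (w : SWord) : Option (List Pol) :=
  (coords w).map fun cs => ks.map fun k => cs.getD k []

/-- The roots moved by a word of nodes. -/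
def movedRoots (J : ℕ) : List ℕ :=
  rorder.map fun r => Cfsg.Agent.ChevGrp.act chevF4 (twF4J J) r
where
  /-- The word of a node. -/
  twF4J (J : ℕ) : List (Fin chevF4.rank) := ChevTw.twF4.wJ chevF4 ⟨J % 2, Nat.mod_lt _ (by decide)⟩

/-- The reflected general element with the given live coordinates. -/
def reflSym (J : ℕ) (ks : List ℕ) : SWord :=
  List.zip (movedRoots J) ((List.range 24).map fun k => if k ∈ ks then pvar k else [])

/-- The live coordinates of given live parameters. -/
def liveCoords (l : List ℕ) : List ℕ :=
  (List.range 24).filter fun k =>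
    (([[0], [0], [1], [1], [1, 2], [2], [3], [3], [4], [4], [4, 5], [5], [6], [6], [7], [7], [7, 8], [8], [9], [9],
      [10], [10], [10, 11], [11]] : List (List ℕ)).getD k []).any fun j => decide (j ∈ l)

end Cfsg.Agent.TwInvolF4
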